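import Cfsg.Agent.H864.F4.Deep

/-!
# S2451, F4 combinatorics: the alternative (helper864, task T2 of helper148)

`f4Set_main`.
-/

set_option autoImplicit false
set_option linter.unusedSectionVars false

namespace Cfsg.Agent.H864.F4

open Cfsg.Agent.Tits.Core Cfsg.Agent.Tits.Core.Bldg Cfsg.Agent.Tits.Exchange Cfsg.Agent.Tits
open Cfsg.Agent.H148.Cls

variable {I : Type*} {M : CoxeterMatrix I} {W : Type*} [Group W] {cs : CoxeterSystem M W} {C : Type*}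
  {Δ : Bldg cs C} [Finite I] [Finite W] {i1 i2 i3 i4 : I} {F : Set C}

variable (h : F4Set Δ i1 i2 i3 i4 F)

include h

/-! ### Case II : no trivial symplecton -/

theorem T1_res34 {x y : C} (hy : y ∈ Δ.Res {i3, i4} x) (hx : Δ.Pan i1 x ⊆ F) : Δ.Pan i1 y ⊆ F := by
  refine Δ.Res_induction (p := fun y => Δ.Pan i1 y ⊆ F) hx ?_ hy
  intro z _ z' i hi hz hzF
  rcases hi with rfl | rfl
  · exact inv13 h (pan hz) hzF
  · exact inv14 h (pan hz) hzF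

/-- `x` has a point equal or joined to the point of `P` -/
def Near (Δ : Bldg cs C) (i1 i2 i3 i4 : I) (F : Set C) (P x : C) : Prop :=
  ∃ x1 ∈ Δ.Res {i2, i3, i4} x, x1 ∈ F ∧ ∃ y ∈ Δ.Res {i2, i3, i4} P, x1 ∈ Δ.Pan i1 y

theorem near_step {P y x1 x2 x2' z z' a b : C} (hy : y ∈ Δ.Res {i2, i3, i4} P) (hx1 : x1 ∈ Δ.Pan i1 y)
    (hx2 : x2 ∈ Δ.Res {i3, i4} x1) (hx2' : x2' ∈ Δ.Res {i3, i4} z) (hz' : z' ∈ Δ.Pan i1 z)
    (hT : Δ.Pan i1 x2 ⊆ F) (hT' : Δ.Pan i1 x2' ⊆ F) (ha : a ∈ Δ.Pan i3 x2) (hb : b ∈ Δ.Pan i2 a)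
    (hb' : x2' ∈ Δ.Pan i3 b) : Near Δ i1 i2 i3 i4 F P z' := by
  obtain ⟨y'', e1, e2, _⟩ := trRes (c34 h) (ps hx1) (rt hx2 (resL ha))
  obtain ⟨x'', e3, e4, _⟩ := trRes (c34 h) hz' (rt hx2' (resL (ps hb')))
  have hTa : Δ.Pan i1 a ⊆ F := inv13 h ha hT
  have hTb : Δ.Pan i1 b ⊆ F := inv13 h (ps hb') hT'
  have hy'' : y'' ∈ Δ.Res {i2, i3, i4} P := rt hy (Δ.Res_mono s34 _ e1)
  have hx'' : x'' ∈ Δ.Res {i2, i3, i4} z' := Δ.Res_mono s34 _ e3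
  by_cases hab : b = a
  · subst hab
    exact ⟨x'', hx'', hTb e4, y'', hy'', pt (ps e2) e4⟩
  · have hT12 := C3' h hb hab hTa hTb
    have hR : x'' ∈ Δ.Res {i2, i1} y'' := by
      rw [Set.pair_comm]
      exact rt (resL (ps e2)) (rt (resR hb) (resL e4))
    obtain ⟨u, hu, v, hv, hxv⟩ := join3 (sym h.m12) hR
    refine ⟨v, rt hx'' (pr (by simp) (ps hxv)), hT12 ?_, u, rt hy'' (pr (by simp) hu), hv⟩
    exact rt (resL e2) (rt (resR hu) (resL hv))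

theorem near_all (hall : ∀ i : I, i = i1 ∨ i = i2 ∨ i = i3 ∨ i = i4) {P : C} (hP : Δ.Res {i2, i3, i4} P ⊆ F)
    (hno : ∀ x, ¬ Δ.Res {i1, i2, i3} x ⊆ F) {x : C} (hx : x ∈ F) : Near Δ i1 i2 i3 i4 F P x := by
  refine conn (p := fun x => Near Δ i1 i2 i3 i4 F P x) h.conv (J := Set.univ) (self_of_T hP) hx
    (by rw [Δ.Res_univ]; trivial) ⟨P, Δ.self_mem_Res _ _, self_of_T hP, P, Δ.self_mem_Res _ _, Δ.self_mem_Pan _ _⟩ ?_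
  rintro z hzF z' hzF' _ j _ hzz' hne ⟨x1, hx1, hx1F, y, hy, hx1y⟩
  have hj : j = i1 ∨ j ∈ ({i2, i3, i4} : Set I) := by
    rcases hall j with rfl | rfl | rfl | rfl
    · exact Or.inl rfl
    all_goals exact Or.inr (by simp)
  rcases hj with rfl | hj
  swap
  · exact ⟨x1, rt (rs (pr hj hzz')) hx1, hx1F, y, hy, hx1y⟩
  by_cases hxy : x1 = y
  · subst hxy
    exact ⟨z', Δ.self_mem_Res _ _, hzF', z, rt hy (rs hx1), hzz'⟩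
  have hDy : Δ.Res {i2, i3, i4} y ⊆ F := T_eq hy hP
  have hDx1 : ¬ Δ.Res {i2, i3, i4} x1 ⊆ F := by
    intro hD
    obtain ⟨w, _, hw⟩ := K1 h (G2' h hx1y hxy hDy hD)
    exact hno w hw
  have hT1 : Δ.Pan j x1 ⊆ F := T1_eq hx1y (h.uni j y x1 (self_of_T hDy) hx1F hx1y hxy)
  have hTz : Δ.Pan j z ⊆ F := h.uni j z z' hzF hzF' hzz' hne
  obtain ⟨x2, hx2, hTx2⟩ := climb h hx1F
  obtain ⟨x2', hx2', hTx2'⟩ := climb h hzF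
  have hT1' := T1_res34 h hx2 hT1
  have hTz' := T1_res34 h hx2' hTz
  have hR : x2' ∈ Δ.Res {i2, i3, i4} x2 :=
    rt (rs (Δ.Res_mono s34 _ hx2)) (rt (rs hx1) (Δ.Res_mono s34 _ hx2'))
  rcases B3 h hTx2 hTx2' hR with hD | hR'
  · exact absurd (T_eq (rs (Δ.Res_mono s34 _ hx2)) hD) hDx1
  rw [Set.pair_comm] at hR'
  obtain ⟨a, ha, b, hb, c, hc, hd⟩ := join4 (sym h.m23) hR'
  have hs := Δ.self_mem_Pan
  by_cases n1 : x2' = c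
  · subst n1
    exact near_step h hy hx1y hx2 hx2' hzz' hT1' hTz' ha hb hc
  by_cases n2 : c = b
  · subst n2
    exact near_step h hy hx1y hx2 hx2' hzz' hT1' hTz' ha (pt hb hd) (hs i3 x2')
  by_cases n3 : b = a
  · subst n3
    exact near_step h hy hx1y hx2 hx2' hzz' hT1' hTz' (pt ha hc) hd (hs i3 x2')
  exfalso
  obtain ⟨y'', e1, e2, e3⟩ := trRes (c34 h) (ps hx1y) (rt hx2 (resL ha))
  obtain ⟨x'', e4, e5, e6⟩ := trRes (c34 h) hzz' hx2'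
  have hy'' : y'' ∈ Δ.Res {i2, i3, i4} P := rt hy (Δ.Res_mono s34 _ e1)
  refine hno y'' (h.g3 y'' x'' (T_mono s23 (T_eq hy'' hP)) (hTz' e5) ?_)
  exact d5 h.m12 h.m23 h.m13 (adj (ps e2) (e3 (Ne.symm hxy)).symm) (adj hb n3) (adj hc n2) (adj hd n1)
    (adj e5 (e6 hne))

theorem caseII (hall : ∀ i : I, i = i1 ∨ i = i2 ∨ i = i3 ∨ i = i4) {P : C} (hP : Δ.Res {i2, i3, i4} P ⊆ F)
    (hno : ∀ x, ¬ Δ.Res {i1, i2, i3} x ⊆ F) {x : C} (hx : Δ.Res {i2, i3} x ⊆ F) :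
    ∃ y ∈ Δ.Res {i2, i3} x, ∃ y' ∈ Δ.Pan i1 y, y' ∈ Δ.Res {i2, i3, i4} P := by
  obtain ⟨x1, hx1, hx1F, y, hy, hx1y⟩ := near_all h hall hP hno (self_of_T hx)
  by_cases hxy : x1 = y
  · subst hxy
    exact ⟨x, Δ.self_mem_Res _ _, x, Δ.self_mem_Pan _ _, rt hy (rs hx1)⟩
  have hDy : Δ.Res {i2, i3, i4} y ⊆ F := T_eq hy hP
  have hDx1 : ¬ Δ.Res {i2, i3, i4} x1 ⊆ F := by
    intro hD
    obtain ⟨w, _, hw⟩ := K1 h (G2' h hx1y hxy hDy hD)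
    exact hno w hw
  obtain ⟨x2, hx2, hTx2⟩ := climb h hx1F
  have hR : x2 ∈ Δ.Res {i2, i3, i4} x := rt hx1 (Δ.Res_mono s34 _ hx2)
  rcases B3 h hx hTx2 hR with hD | hR'
  · exact absurd (T_eq hx1 hD) hDx1
  obtain ⟨y'', e1, e2, _⟩ := trRes (c34 h) (ps hx1y) hx2
  exact ⟨x2, hR', y'', e2, rt hy (Δ.Res_mono s34 _ e1)⟩

/-! ### Case I : trivial symplecta -/

theorem D_of_V4 {x : C} (hx : ∀ x' ∈ Δ.Pan i4 x, Δ.Res {i1, i2, i3} x' ⊆ F) :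
    ∀ y ∈ Δ.Res {i1, i2} x, Δ.Res {i2, i3, i4} y ⊆ F := by
  obtain ⟨x', hx', hne⟩ := other h.thick i4 x
  exact K2a h hx' hne (hx x (Δ.self_mem_Pan _ _)) (hx x' hx')

theorem D1_of_V4 {x u : C} (hx : ∀ x' ∈ Δ.Pan i4 x, Δ.Res {i1, i2, i3} x' ⊆ F) (hu : u ∈ Δ.Pan i2 x) :
    ∀ z ∈ Δ.Pan i1 u, Δ.Res {i2, i3, i4} z ⊆ F := fun z hz => D_of_V4 h hx z (rt (resR hu) (resL hz))

theorem D1_inv3 {x y : C} (hy : y ∈ Δ.Pan i3 x) (hx : ∀ z ∈ Δ.Pan i1 x, Δ.Res {i2, i3, i4} z ⊆ F) :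
    ∀ z ∈ Δ.Pan i1 y, Δ.Res {i2, i3, i4} z ⊆ F := D1_inv h h.m13 (Or.inl rfl) hy hx

theorem D1_inv4 {x y : C} (hy : y ∈ Δ.Pan i4 x) (hx : ∀ z ∈ Δ.Pan i1 x, Δ.Res {i2, i3, i4} z ⊆ F) :
    ∀ z ∈ Δ.Pan i1 y, Δ.Res {i2, i3, i4} z ⊆ F := D1_inv h h.m14 (Or.inr rfl) hy hx

theorem V4_inv {k : I} (hk : k = i1 ∨ k = i2) {x y : C} (hy : y ∈ Δ.Pan k x)
    (hx : ∀ x' ∈ Δ.Pan i4 x, Δ.Res {i1, i2, i3} x' ⊆ F) : ∀ x' ∈ Δ.Pan i4 y, Δ.Res {i1, i2, i3} x' ⊆ F := by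
  intro z hz
  have hm : M k i4 = 2 := by
    rcases hk with rfl | rfl
    · exact h.m14
    · exact h.m24
  obtain ⟨w, e1, e2, _⟩ := tr hm hz (ps hy)
  have hmem : k ∈ ({i1, i2, i3} : Set I) := by rcases hk with rfl | rfl <;> simp
  exact T_eq (rs (pr hmem e1)) (hx w e2)

theorem V34_inv1 {x y : C} (hy : y ∈ Δ.Pan i1 x) (hx : ∀ x' ∈ Δ.Res {i3, i4} x, Δ.Res {i1, i2, i3} x' ⊆ F) :
    ∀ x' ∈ Δ.Res {i3, i4} y, Δ.Res {i1, i2, i3} x' ⊆ F := by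
  intro z hz
  obtain ⟨w, e1, e2, _⟩ := trRes (c34 h) (ps hy) hz
  exact T_eq (rs (pr (by simp) e2)) (hx w e1)

omit h in
theorem V4_of_V34 {x y : C} (hx : ∀ x' ∈ Δ.Res {i3, i4} x, Δ.Res {i1, i2, i3} x' ⊆ F) (hy : y ∈ Δ.Res {i3, i4} x) :
    ∀ x' ∈ Δ.Pan i4 y, Δ.Res {i1, i2, i3} x' ⊆ F := fun z hz => hx z (rt hy (resR hz))

theorem E3 {x : C} (hD : ∀ z ∈ Δ.Pan i1 x, Δ.Res {i2, i3, i4} z ⊆ F) (hV : Δ.Res {i1, i2, i3} x ⊆ F) :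
    ∃ x' ∈ Δ.Pan i3 x, ∀ y ∈ Δ.Pan i4 x', Δ.Res {i1, i2, i3} y ⊆ F := by
  refine la2a (V := fun y => Δ.Res {i1, i2, i3} y ⊆ F) h.thick (sym h.m34)
    (fun y hy y' hy' => T_eq (pr (by simp) hy') hy) (fun y hy => ?_) (fun y _ y' hy' hne h1 h2 => K2 h hy' hne h1 h2) hV
  have h1 : ∀ z ∈ Δ.Pan i1 y, Δ.Res {i2, i3, i4} z ⊆ F := by
    refine Δ.Res_induction (p := fun y => ∀ z ∈ Δ.Pan i1 y, Δ.Res {i2, i3, i4} z ⊆ F) hD ?_ hy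
    intro z _ z' i hi hz hzD
    rcases hi with rfl | rfl
    · exact D1_inv4 h (pan hz) hzD
    · exact D1_inv3 h (pan hz) hzD
  exact K1 h h1

theorem E3' {x x' : C} (hx' : x' ∈ Δ.Pan i3 x) (hne : x' ≠ x) (h1 : ∀ y ∈ Δ.Pan i4 x, Δ.Res {i1, i2, i3} y ⊆ F)
    (h2 : ∀ y ∈ Δ.Pan i4 x', Δ.Res {i1, i2, i3} y ⊆ F) : ∀ y ∈ Δ.Res {i3, i4} x, Δ.Res {i1, i2, i3} y ⊆ F := by
  have h3 := la2b (V := fun y => Δ.Res {i1, i2, i3} y ⊆ F) h.thick (sym h.m34)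
    (fun y hy y' hy' => T_eq (pr (by simp) hy') hy) (fun y _ y' hy' hne h1 h2 => K2 h hy' hne h1 h2) hx' hne h1 h2
  intro y hy
  rw [Set.pair_comm] at hy
  exact h3 y hy

theorem E2 {x : C} (hx : ∀ x' ∈ Δ.Pan i4 x, Δ.Res {i1, i2, i3} x' ⊆ F) :
    ∃ x' ∈ Δ.Pan i2 x, ∀ y ∈ Δ.Res {i3, i4} x', Δ.Res {i1, i2, i3} y ⊆ F := by
  have n23 := ne_of_four h.m23
  have m32 := sym h.m23
  have hV := hx x (Δ.self_mem_Pan _ _)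
  have hD := D_of_V4 h hx x (Δ.self_mem_Res _ _)
  obtain ⟨a, ha, hax⟩ := other h.thick i3 x
  obtain ⟨b, hb, hba⟩ := other h.thick i2 a
  obtain ⟨y, hy, hyb⟩ := other h.thick i3 b
  have hyR : y ∈ Δ.Res {i2, i3} x := rt (resR ha) (rt (resL hb) (resR hy))
  obtain ⟨y', hy', hDy'⟩ := M1 h (T_eq (Δ.Res_mono s23' _ hyR) hV) (T_eq (Δ.Res_mono s23 _ hyR) hD)
  have hlen : 3 ≤ cs.length (Δ.δ x y') := by
    by_cases hyy : y' = y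
    · subst hyy
      have := len3 n23.symm (by rw [m32]; omega) (adj ha hax) (adj hb hba) (adj hy hyb)
      omega
    · have := len4 m32 (adj ha hax) (adj hb hba) (adj hy hyb) (adj hy' hyy)
      omega
  obtain ⟨u, hu, v, hv, w, hw, hyw⟩ := join4 h.m23 (rt hyR (resL hy'))
  have l0 := len_self (Δ := Δ) x
  have l1 := len_le (x := x) hu
  have huv : v ≠ u := by
    rintro rfl
    have l2 := len_le (x := x) (pt hu hw)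
    have l3 := len_le (x := x) hyw
    omega
  have hvw : w ≠ v := by
    rintro rfl
    have l3 := len_le (x := x) (pt hv hyw)
    omega
  have D1w := D1_inv3 h (ps hyw) hDy'
  have D1u := D1_of_V4 h hx hu
  have D1v := D1_inv3 h hv D1u
  have V4v := M2 h hw hvw D1v D1w
  have V4u := V4_inv h (Or.inr rfl) hu hx
  exact ⟨u, hu, E3' h hv huv V4u V4v⟩

theorem W2a {y1 y2 : C} (hy2 : y2 ∈ Δ.Pan i2 y1) (hne : y2 ≠ y1)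
    (h1 : ∀ y ∈ Δ.Res {i3, i4} y1, Δ.Res {i1, i2, i3} y ⊆ F) (h2 : ∀ y ∈ Δ.Res {i3, i4} y2, Δ.Res {i1, i2, i3} y ⊆ F) :
    ∀ y3 ∈ Δ.Pan i2 y1, ∀ y ∈ Δ.Res {i3, i4} y3, Δ.Res {i1, i2, i3} y ⊆ F := by
  intro y3 hy3
  by_cases n1 : y3 = y1
  · subst n1; exact h1
  by_cases n2 : y3 = y2
  · subst n2; exact h2
  have n23 := ne_of_four h.m23
  have m32 := sym h.m23
  have hV4y1 := V4_of_V34 h1 (Δ.self_mem_Res _ _)
  have hV4y3 := V4_inv h (Or.inr rfl) hy3 hV4y1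
  obtain ⟨r, hr, n3⟩ := other h.thick i3 y3
  obtain ⟨t, ht, n4⟩ := other h.thick i2 r
  obtain ⟨m, hm, n5⟩ := other h.thick i3 t
  have key : ∀ y : C, y3 ∈ Δ.Pan i2 y → y3 ≠ y → (∀ z ∈ Δ.Res {i3, i4} y, Δ.Res {i1, i2, i3} z ⊆ F) →
      ∃ a b m', Δ.δ y a = cs.simple i3 ∧ Δ.δ a b = cs.simple i2 ∧ Δ.δ b m' = cs.simple i3 ∧ m' ∈ Δ.Pan i2 m ∧
        (∀ z ∈ Δ.Pan i1 m', Δ.Res {i2, i3, i4} z ⊆ F) := by
    intro y hy3y hne3 hV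
    have l4 := len4 h.m23 (adj hy3y hne3) (adj hr n3) (adj ht n4) (adj hm n5)
    have hR : m ∈ Δ.Res {i3, i2} y := by
      rw [Set.pair_comm]
      exact rt (resL hy3y) (rt (resR hr) (rt (resL ht) (resR hm)))
    obtain ⟨a, ha, b, hb, m', hm', hmm'⟩ := join4 m32 hR
    have l0 := len_self (Δ := Δ) y
    have e1 := len_le (x := y) ha
    have e2 := len_le (x := y) hb
    have e3 := len_le (x := y) hm'
    have e4 := len_le (x := y) hmm'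
    have na : a ≠ y := by rintro rfl; omega
    have nb : b ≠ a := by rintro rfl; omega
    have nm : m' ≠ b := by rintro rfl; omega
    refine ⟨a, b, m', adj ha na, adj hb nb, adj hm' nm, ps hmm', ?_⟩
    exact D1_inv3 h hm' (D1_of_V4 h (V4_of_V34 hV (resL ha)) hb)
  obtain ⟨a1, b1, m1, e1, e2, e3, e4, D1m1⟩ := key y1 hy3 n1 h1
  obtain ⟨a2, b2, m2, f1, f2, f3, f4, D1m2⟩ := key y2 (pt (ps hy2) hy3) n2 h2
  have hm12 : m2 ≠ m1 := by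
    rintro rfl
    have l3 := len3 n23.symm (by rw [m32]; omega) f1 f2 f3
    have l4 := len4 h.m23 (Δ.δ_symm_simple (adj hy2 hne)) e1 e2 e3
    omega
  have hDm := M2a h (pt (ps e4) f4) hm12 D1m1 D1m2
  have D1m : ∀ z ∈ Δ.Pan i1 m, Δ.Res {i2, i3, i4} z ⊆ F := fun z hz => hDm z (rt (resR (ps e4)) (resL hz))
  have D1t := D1_inv3 h (ps hm) D1m
  have D1r := D1_inv3 h hr (D1_of_V4 h hV4y3 (Δ.self_mem_Pan _ _))
  have V4r := M2 h ht n4 D1r D1t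
  exact E3' h hr n3 hV4y3 V4r

theorem W2b {y : C} (hy : ∀ y' ∈ Δ.Pan i2 y, ∀ z ∈ Δ.Res {i3, i4} y', Δ.Res {i1, i2, i3} z ⊆ F) :
    ∀ z ∈ Δ.Res {i2, i3, i4} y, Δ.Res {i1, i2, i3} z ⊆ F := by
  have key : ∀ z ∈ Δ.Res {i2, i3, i4} y, ∀ y' ∈ Δ.Pan i2 z, ∀ z' ∈ Δ.Res {i3, i4} y', Δ.Res {i1, i2, i3} z' ⊆ F := by
    intro z hz
    refine Δ.Res_induction (p := fun z => ∀ y' ∈ Δ.Pan i2 z, ∀ z' ∈ Δ.Res {i3, i4} y', Δ.Res {i1, i2, i3} z' ⊆ F)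
      hy ?_ hz
    clear hz z
    intro z _ z1 j hj hzz1 hz w hw
    have hs := Δ.self_mem_Pan
    rcases hj with rfl | rfl | rfl
    · exact hz w (pt (pan hzz1) hw)
    · -- `z1 =3= z`
      have h0 := hz z (hs i2 z)
      have h1 : ∀ z' ∈ Δ.Res {j, i4} z1, Δ.Res {i1, i2, j} z' ⊆ F := fun z' hz' =>
        h0 z' (rt (resL (pan hzz1)) hz')
      by_cases hwz : w = z1
      · subst hwz; exact h1
      have hV4w := V4_inv h (Or.inr rfl) hw (V4_of_V34 h1 (Δ.self_mem_Res _ _))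
      obtain ⟨w2, hw2, nw2⟩ := other h.thick j w
      have hD : ∀ u ∈ Δ.Pan i2 w2, ∀ v ∈ Δ.Pan i1 u, Δ.Res {i2, j, i4} v ⊆ F := by
        intro u hu
        have hR : z ∈ Δ.Res {j, i2} u := by
          rw [Set.pair_comm]
          exact rt (resL (ps hu)) (rt (resR (ps hw2)) (rt (resL (ps hw)) (resR (ps (pan hzz1)))))
        obtain ⟨a, ha, b, hb, c, hc, hzc⟩ := join4 (sym h.m23) hR
        have hVc := hz c (ps hzc)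
        exact D1_inv3 h (ps ha) (D1_of_V4 h (V4_of_V34 hVc (resL (ps hc))) (ps hb))
      obtain ⟨u, hu, nu⟩ := other h.thick i2 w2
      have hV4w2 := M2 h hu nu (hD w2 (hs i2 w2)) (hD u hu)
      exact E3' h hw2 nw2 hV4w hV4w2
    · obtain ⟨w', e1, e2, _⟩ := tr h.m24 (ps (pan hzz1)) hw
      intro z' hz'
      exact hz w' e1 z' (rt (resR (ps e2)) hz')
  intro z hz
  exact key z hz z (Δ.self_mem_Pan _ _) z (Δ.self_mem_Res _ _)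

theorem E1 {x : C} (hx : ∀ x' ∈ Δ.Res {i3, i4} x, Δ.Res {i1, i2, i3} x' ⊆ F) :
    ∃ x', ∀ z ∈ Δ.Res {i2, i3, i4} x', Δ.Res {i1, i2, i3} z ⊆ F := by
  have hE : ∀ y ∈ Δ.Res {i2, i1} x, ∃ y' ∈ Δ.Pan i2 y, ∀ z ∈ Δ.Res {i3, i4} y', Δ.Res {i1, i2, i3} z ⊆ F := by
    intro y hy
    have h1 : ∀ z ∈ Δ.Pan i4 y, Δ.Res {i1, i2, i3} z ⊆ F := by
      refine Δ.Res_induction (p := fun y => ∀ z ∈ Δ.Pan i4 y, Δ.Res {i1, i2, i3} z ⊆ F)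
        (V4_of_V34 hx (Δ.self_mem_Res _ _)) ?_ hy
      intro z _ z' i hi hz hzD
      rcases hi with rfl | rfl
      · exact V4_inv h (Or.inr rfl) (pan hz) hzD
      · exact V4_inv h (Or.inl rfl) (pan hz) hzD
    exact E2 h h1
  obtain ⟨x', _, h1⟩ := la2a (V := fun y => ∀ x' ∈ Δ.Res {i3, i4} y, Δ.Res {i1, i2, i3} x' ⊆ F) h.thick (sym h.m12)
    (x := x) (fun y hy y' hy' => V34_inv1 h hy' hy) hE (fun y _ y' hy' hne h1 h2 => W2a h hy' hne h1 h2) hx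
  exact ⟨x', W2b h h1⟩

theorem caseI {x : C} (hx : Δ.Res {i1, i2, i3} x ⊆ F) :
    ∃ x', ∀ z ∈ Δ.Res {i2, i3, i4} x', Δ.Res {i1, i2, i3} z ⊆ F := by
  have hpan : ∀ {y z : C} {i : I}, i ∈ ({i1, i2, i3} : Set I) → z ∈ Δ.Pan i y → Δ.Res {i1, i2, i3} y ⊆ F →
      Δ.Res {i1, i2, i3} z ⊆ F := fun hi hz hy => T_eq (pr hi hz) hy
  obtain ⟨x1, hx1, hD1⟩ := L1 h (x := x) fun z hz => T_mono s23' (hpan (by simp) hz hx)
  have hV1 := hpan (by simp) hx1 hx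
  obtain ⟨x2, hx2, hD2⟩ := M1 h hV1 hD1
  have hV2 := hpan (by simp) hx2 hV1
  obtain ⟨x3, hx3, hV3⟩ := E3 h hD2 hV2
  obtain ⟨x4, hx4, hV4⟩ := E2 h hV3
  exact E1 h hV4

/-- **The alternative** (`F4Set.main` of task T2). -/
theorem f4Set_main (hall : ∀ i : I, i = i1 ∨ i = i2 ∨ i = i3 ∨ i = i4) (hne : F.Nonempty) :
    F4Main Δ i1 i2 i3 i4 F := by
  by_cases hV : ∃ x, Δ.Res {i1, i2, i3} x ⊆ F
  · obtain ⟨x, hx⟩ := hV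
    exact Or.inl (caseI h hx)
  · push Not at hV
    obtain ⟨P, hP⟩ := L2 h hne
    exact Or.inr ⟨P, hP, fun x hx => caseII h hall hP hV hx⟩

end Cfsg.Agent.H864.F4
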