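import Mathlib
import Cfsg.Agent.ChevalleyStructure.CoxeterGeom
import Cfsg.Agent.Tits.OppRes

/-!
# S2451, type `F4`: computations in the Weyl group of type `F4` (helper864)

* `red_length`, `descent_iff` : lengths and descents of words by the action on the root lattice (computable);
* `wJ_eq`        : longest elements;
* `wJ_b3`        : `w_{123} = w_{23} (s1 s2 s3 s2 s1)`, lengths add;
* `w0_four`      : `w0 = u1 u2 u3 u4`, `u1, u3 ∈ W_{123}`, `u2, u4 ∈ W_{234}`, lengths add.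
-/

set_option autoImplicit false
set_option linter.unusedSectionVars false

namespace Cfsg.Agent.H864.F4.Wf

open Cfsg.Agent.Tits.Core Cfsg.Agent.Tits
open Cfsg.Agent.ChevalleyStructure.CoxeterGeom

/-! ### computable data -/

/-- vectors of the root lattice -/
structure V4 where
  a : ℤ
  b : ℤ
  c : ℤ
  d : ℤ
deriving DecidableEq

namespace V4

def get (v : V4) : Fin 4 → ℤ
  | 0 => v.a
  | 1 => v.b
  | 2 => v.c
  | 3 => v.d

def E : Fin 4 → V4
  | 0 => ⟨1, 0, 0, 0⟩
  | 1 => ⟨0, 1, 0, 0⟩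
  | 2 => ⟨0, 0, 1, 0⟩
  | 3 => ⟨0, 0, 0, 1⟩

def r (k : Fin 4) (v : V4) : V4 :=
  match k with
  | 0 => ⟨-v.a + v.b, v.b, v.c, v.d⟩
  | 1 => ⟨v.a, v.a - v.b + v.c, v.c, v.d⟩
  | 2 => ⟨v.a, v.b, 2 * v.b - v.c + v.d, v.d⟩
  | 3 => ⟨v.a, v.b, v.c, v.c - v.d⟩

def act (ω : List (Fin 4)) (v : V4) : V4 := ω.foldr r v

def nn (v : V4) : Bool := decide (0 ≤ v.a) && decide (0 ≤ v.b) && decide (0 ≤ v.c) && decide (0 ≤ v.d)

def np (v : V4) : Bool := decide (v.a ≤ 0) && decide (v.b ≤ 0) && decide (v.c ≤ 0) && decide (v.d ≤ 0)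

end V4

/-- the word is reduced -/
def red : List (Fin 4) → Bool
  | [] => true
  | k :: ω => (V4.act ω.reverse (V4.E k)).nn && red ω

def mF : Fin 4 → Fin 4 → ℕ
  | 0, 0 => 1 | 0, 1 => 3 | 0, 2 => 2 | 0, 3 => 2
  | 1, 0 => 3 | 1, 1 => 1 | 1, 2 => 4 | 1, 3 => 2
  | 2, 0 => 2 | 2, 1 => 4 | 2, 2 => 1 | 2, 3 => 3
  | 3, 0 => 2 | 3, 1 => 2 | 3, 2 => 3 | 3, 3 => 1

def aF : Fin 4 → Fin 4 → ℤ
  | 0, 0 => 2 | 0, 1 => -1 | 0, 2 => 0 | 0, 3 => 0
  | 1, 0 => -1 | 1, 1 => 2 | 1, 2 => -1 | 1, 3 => 0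
  | 2, 0 => 0 | 2, 1 => -2 | 2, 2 => 2 | 2, 3 => -1
  | 3, 0 => 0 | 3, 1 => 0 | 3, 2 => -1 | 3, 3 => 2

theorem aF_diag : ∀ a, aF a a = 2 := by decide

theorem aF_rel : ∀ a b : Fin 4, a ≠ b → (mF a b = 2 ∧ aF a b = 0 ∧ aF b a = 0) ∨
    (mF a b = 3 ∧ aF a b = -1 ∧ aF b a = -1) ∨
    (mF a b = 4 ∧ ((aF a b = -1 ∧ aF b a = -2) ∨ (aF a b = -2 ∧ aF b a = -1))) ∨
    (mF a b = 6 ∧ ((aF a b = -1 ∧ aF b a = -3) ∨ (aF a b = -3 ∧ aF b a = -1))) := by decide

/-! ### a labelling of the nodes -/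

/-- a labelling of the nodes -/
structure Lab {I : Type*} (M : CoxeterMatrix I) (nd : Fin 4 → I) (e : I → Fin 4) : Prop where
  left : ∀ k, e (nd k) = k
  right : ∀ i, nd (e i) = i
  m : ∀ a b, M (nd a) (nd b) = mF a b

variable {I : Type*} {M : CoxeterMatrix I} {W : Type*} [Group W] (cs : CoxeterSystem M W)
  {nd : Fin 4 → I} {e : I → Fin 4}

theorem Lab.cartan (h : Lab M nd e) : IsCartan M (fun i j => aF (e i) (e j)) where
  diag i := aF_diag _
  rel i j hij := by
    have h1 : e i ≠ e j := fun hh => hij (by rw [← h.right i, ← h.right j, hh])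
    have h2 : M i j = mF (e i) (e j) := by
      have h3 := h.m (e i) (e j)
      rwa [h.right, h.right] at h3
    rw [h2]
    exact aF_rel _ _ h1

/-- the element of a word -/
def wp (nd : Fin 4 → I) (ω : List (Fin 4)) : W := (ω.map fun k => cs.simple (nd k)).prod

@[simp] theorem wp_nil : wp cs nd [] = 1 := rfl

theorem wp_cons (k : Fin 4) (ω : List (Fin 4)) : wp cs nd (k :: ω) = cs.simple (nd k) * wp cs nd ω := by
  rw [wp, List.map_cons, List.prod_cons]; rfl

theorem wp_append (ω ω' : List (Fin 4)) : wp cs nd (ω ++ ω') = wp cs nd ω * wp cs nd ω' := by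
  rw [wp, List.map_append, List.prod_append]; rfl

theorem wp_reverse (ω : List (Fin 4)) : wp cs nd ω.reverse = (wp cs nd ω)⁻¹ := by
  induction ω with
  | nil => simp
  | cons k ω ih =>
    rw [List.reverse_cons, wp_append, ih, wp_cons, wp_cons, wp_nil, mul_one, mul_inv_rev, cs.inv_simple]

theorem wp_mem {J : Set I} (ω : List (Fin 4)) (h : ∀ k ∈ ω, nd k ∈ J) : wp cs nd ω ∈ WJ cs J := by
  induction ω with
  | nil => exact one_mem _
  | cons k ω ih =>
    rw [wp_cons]
    exact mul_mem (OppRes.simple_mem_WJ (h k (List.mem_cons_self ..)))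
      (ih fun k' hk' => h k' (List.mem_cons_of_mem _ hk'))

section Rep

variable [Fintype I] [DecidableEq I]

/-- coordinates -/
def emb (e : I → Fin 4) (v : V4) : I → ℤ := fun i => v.get (e i)

theorem emb_E (h : Lab M nd e) (k : Fin 4) : emb e (V4.E k) = Pi.single (nd k) 1 := by
  have key : ∀ k l : Fin 4, (V4.E k).get l = if l = k then 1 else 0 := by decide
  funext i
  rw [emb, key, Pi.single_apply]
  have : (e i = k) ↔ (i = nd k) := ⟨fun h1 => by rw [← h1, h.right], fun h1 => by rw [h1, h.left]⟩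
  simp only [this]

theorem sum_eq (h : Lab M nd e) (f : I → ℤ) : ∑ i, f i = f (nd 0) + f (nd 1) + f (nd 2) + f (nd 3) := by
  let E : Fin 4 ≃ I := ⟨nd, e, h.left, h.right⟩
  rw [← E.sum_comp, Fin.sum_univ_four]
  rfl

theorem rep_r (h : Lab M nd e) (k : Fin 4) (v : V4) :
    rep cs h.cartan (cs.simple (nd k)) (emb e v) = emb e (V4.r k v) := by
  rw [rep_simple, refl_apply]
  funext i
  obtain ⟨l, rfl⟩ : ∃ l, i = nd l := ⟨e i, (h.right i).symm⟩
  rw [Pi.sub_apply, Pi.single_apply, pairing, sum_eq h]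
  have hinj : (nd l = nd k) ↔ l = k := ⟨fun h1 => by rw [← h.left l, h1, h.left], fun h1 => by rw [h1]⟩
  simp only [hinj, emb, h.left]
  fin_cases k <;> fin_cases l <;> simp [V4.get, V4.r, aF] <;> ring

theorem rep_act (h : Lab M nd e) (ω : List (Fin 4)) (v : V4) :
    rep cs h.cartan (wp cs nd ω) (emb e v) = emb e (V4.act ω v) := by
  induction ω with
  | nil => rw [wp_nil, map_one, Module.End.one_apply]; rfl
  | cons k ω ih => rw [wp_cons, rep_mul_apply, ih, rep_r cs h]; rfl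

theorem emb_nonneg (v : V4) (hv : v.nn = true) : 0 ≤ emb e v := by
  simp only [V4.nn, Bool.and_eq_true, decide_eq_true_eq] at hv
  obtain ⟨⟨⟨h1, h2⟩, h3⟩, h4⟩ := hv
  intro i
  show 0 ≤ v.get (e i)
  generalize e i = k
  fin_cases k
  · exact h1
  · exact h2
  · exact h3
  · exact h4

theorem emb_nonpos (v : V4) (hv : v.np = true) : emb e v ≤ 0 := by
  simp only [V4.np, Bool.and_eq_true, decide_eq_true_eq] at hv
  obtain ⟨⟨⟨h1, h2⟩, h3⟩, h4⟩ := hv
  intro i
  show v.get (e i) ≤ 0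
  generalize e i = k
  fin_cases k
  · exact h1
  · exact h2
  · exact h3
  · exact h4

end Rep

variable [Finite I]

theorem asc (h : Lab M nd e) (ω : List (Fin 4)) (k : Fin 4) (hk : (V4.act ω (V4.E k)).nn = true) :
    cs.length (wp cs nd ω) < cs.length (wp cs nd ω * cs.simple (nd k)) := by
  classical
  have := Fintype.ofFinite I
  rw [lt_iff' cs h.cartan, ← emb_E h, rep_act cs h]
  exact emb_nonneg _ hk

theorem desc (h : Lab M nd e) (ω : List (Fin 4)) (k : Fin 4) (hk : (V4.act ω (V4.E k)).np = true) :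
    cs.length (wp cs nd ω * cs.simple (nd k)) < cs.length (wp cs nd ω) := by
  classical
  have := Fintype.ofFinite I
  rw [lt_iff cs h.cartan, ← emb_E h, rep_act cs h]
  exact emb_nonpos _ hk

theorem red_length (h : Lab M nd e) (ω : List (Fin 4)) (hr : red ω = true) :
    cs.length (wp cs nd ω) = ω.length := by
  induction ω with
  | nil => rw [wp_nil, cs.length_one]; rfl
  | cons k ω ih =>
    rw [red, Bool.and_eq_true] at hr
    have h1 := asc cs h ω.reverse k hr.1
    have h2 : wp cs nd ω.reverse * cs.simple (nd k) = (wp cs nd (k :: ω))⁻¹ := by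
      rw [wp_reverse, wp_cons, mul_inv_rev, cs.inv_simple]
    rw [h2, wp_reverse, cs.length_inv, cs.length_inv, ih hr.2] at h1
    have h3 : cs.length (wp cs nd (k :: ω)) ≤ ω.length + 1 := by
      rw [wp_cons]
      refine (cs.length_mul_le _ _).trans ?_
      rw [cs.length_simple, ih hr.2]
      omega
    rw [List.length_cons]
    omega

variable [Finite W]

theorem wJ_eq (h : Lab M nd e) (J : Set I) (ω : List (Fin 4)) (h1 : ∀ k ∈ ω, nd k ∈ J)
    (h2 : ∀ k, nd k ∈ J → (V4.act ω (V4.E k)).np = true) : wp cs nd ω = wJ cs J := by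
  refine (OppRes.instCox (cs := cs)).eq_wJ_of_descents (wp_mem cs ω h1) ?_
  intro j hj
  have h3 : nd (e j) ∈ J := by rwa [h.right]
  have h4 := desc cs h ω (e j) (h2 _ h3)
  rwa [h.right] at h4

/-! ### the two facts -/

section Facts

variable {i1 i2 i3 i4 : I} (m12 : M i1 i2 = 3) (m23 : M i2 i3 = 4) (m34 : M i3 i4 = 3) (m13 : M i1 i3 = 2)
  (m14 : M i1 i4 = 2) (m24 : M i2 i4 = 2) (hall : ∀ i, i = i1 ∨ i = i2 ∨ i = i3 ∨ i = i4)

include m12 m23 m34 m13 m14 m24 hall

omit [Finite I] in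
theorem exists_lab : ∃ e : I → Fin 4, Lab M ![i1, i2, i3, i4] e := by
  classical
  have hne : ∀ i j : I, M i j ≠ 1 → i ≠ j := by
    rintro i j h rfl
    exact h (M.diagonal i)
  have h12 := hne i1 i2 (by omega)
  have h13 := hne i1 i3 (by omega)
  have h14 := hne i1 i4 (by omega)
  have h23 := hne i2 i3 (by omega)
  have h24 := hne i2 i4 (by omega)
  have h34 := hne i3 i4 (by omega)
  have hs : ∀ i j, M i j = M j i := fun i j => by
    have := M.isSymm
    exact congrFun (congrFun this j) i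
  refine ⟨fun i => if i = i1 then 0 else if i = i2 then 1 else if i = i3 then 2 else 3, ?_, ?_, ?_⟩
  · intro k
    fin_cases k
    · simp
    · simp [h12.symm]
    · simp [h13.symm, h23.symm]
    · simp [h14.symm, h24.symm, h34.symm]
  · intro i
    rcases hall i with rfl | rfl | rfl | rfl
    · simp
    · simp [h12.symm]
    · simp [h13.symm, h23.symm]
    · simp [h14.symm, h24.symm, h34.symm]
  · intro a b
    fin_cases a <;> fin_cases b <;>
      simp [mF, m12, m23, m34, m13, m14, m24, hs i2 i1, hs i3 i1, hs i4 i1, hs i3 i2, hs i4 i2, hs i4 i3]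

/-- `w_{123} = w_{23} (s1 s2 s3 s2 s1)`, lengths add. -/
theorem wJ_b3 : wJ cs {i1, i2, i3} = wJ cs {i2, i3} *
      (cs.simple i1 * cs.simple i2 * cs.simple i3 * cs.simple i2 * cs.simple i1) ∧
    cs.length (wJ cs {i1, i2, i3}) = cs.length (wJ cs {i2, i3}) +
      cs.length (cs.simple i1 * cs.simple i2 * cs.simple i3 * cs.simple i2 * cs.simple i1) := by
  have hinj := exists_lab m12 m23 m34 m13 m14 m24 hall
  obtain ⟨e, h⟩ := hinj
  have hne : ∀ a b : Fin 4, a ≠ b → (![i1, i2, i3, i4] a) ≠ (![i1, i2, i3, i4] b) := fun a b hab hh =>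
    hab (by rw [← h.left a, hh, h.left])
  have e1 : wp cs ![i1, i2, i3, i4] [1, 2, 1, 2] = wJ cs {i2, i3} := by
    refine wJ_eq cs h {i2, i3} [1, 2, 1, 2] ?_ ?_
    · intro k hk
      simp only [List.mem_cons, List.not_mem_nil, or_false] at hk
      rcases hk with rfl | rfl | rfl | rfl <;> simp
    · intro k hk
      fin_cases k
      · rcases hk with hk | hk
        · exact absurd hk (hne 0 1 (by decide))
        · exact absurd hk (hne 0 2 (by decide))
      · decide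
      · decide
      · rcases hk with hk | hk
        · exact absurd hk (hne 3 1 (by decide))
        · exact absurd hk (hne 3 2 (by decide))
  have e2 : wp cs ![i1, i2, i3, i4] [1, 2, 1, 2, 0, 1, 2, 1, 0] = wJ cs {i1, i2, i3} := by
    refine wJ_eq cs h {i1, i2, i3} [1, 2, 1, 2, 0, 1, 2, 1, 0] ?_ ?_
    · intro k hk
      simp only [List.mem_cons, List.not_mem_nil, or_false] at hk
      rcases hk with rfl | rfl | rfl | rfl | rfl | rfl | rfl | rfl | rfl <;> simp
    · intro k hk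
      fin_cases k
      · decide
      · decide
      · decide
      · rcases hk with hk | hk | hk
        · exact absurd hk (hne 3 0 (by decide))
        · exact absurd hk (hne 3 1 (by decide))
        · exact absurd hk (hne 3 2 (by decide))
  have e3 : wp cs ![i1, i2, i3, i4] [0, 1, 2, 1, 0] =
      cs.simple i1 * cs.simple i2 * cs.simple i3 * cs.simple i2 * cs.simple i1 := by
    simp [wp, mul_assoc]
  have l1 := red_length cs h [1, 2, 1, 2] (by decide)
  have l2 := red_length cs h [1, 2, 1, 2, 0, 1, 2, 1, 0] (by decide)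
  have l3 := red_length cs h [0, 1, 2, 1, 0] (by decide)
  rw [e1] at l1
  rw [e2] at l2
  rw [e3] at l3
  refine ⟨?_, by rw [l1, l2, l3]; rfl⟩
  rw [← e1, ← e2, ← e3, ← wp_append]
  rfl

/-- `w0 = u1 u2 u3 u4` with `u1, u3 ∈ W_{123}`, `u2, u4 ∈ W_{234}`, lengths add. -/
theorem w0_four : ∃ u1 ∈ WJ cs {i1, i2, i3}, ∃ u2 ∈ WJ cs {i2, i3, i4}, ∃ u3 ∈ WJ cs {i1, i2, i3},
    ∃ u4 ∈ WJ cs {i2, i3, i4}, w0 cs = u1 * (u2 * (u3 * u4)) ∧
      cs.length (w0 cs) = cs.length u1 + cs.length u2 + cs.length u3 + cs.length u4 := by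
  obtain ⟨e, h⟩ := exists_lab m12 m23 m34 m13 m14 m24 hall
  have hw : wp cs ![i1, i2, i3, i4] ([0, 1, 2, 1, 0] ++ ([3, 2, 1, 2, 3] ++ ([0, 1, 2, 1, 0] ++
      [1, 2, 1, 2, 3, 2, 1, 2, 3]))) = w0 cs := by
    refine wJ_eq cs h Set.univ _ (fun k _ => Set.mem_univ _) ?_
    intro k _
    fin_cases k <;> decide
  have l0 := red_length cs h ([0, 1, 2, 1, 0] ++ ([3, 2, 1, 2, 3] ++ ([0, 1, 2, 1, 0] ++
      [1, 2, 1, 2, 3, 2, 1, 2, 3]))) (by decide)
  have l1 := red_length cs h [0, 1, 2, 1, 0] (by decide)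
  have l2 := red_length cs h [3, 2, 1, 2, 3] (by decide)
  have l4 := red_length cs h [1, 2, 1, 2, 3, 2, 1, 2, 3] (by decide)
  have m1 : ∀ k ∈ ([0, 1, 2, 1, 0] : List (Fin 4)), ![i1, i2, i3, i4] k ∈ ({i1, i2, i3} : Set I) := by
    intro k hk
    simp only [List.mem_cons, List.not_mem_nil, or_false] at hk
    rcases hk with rfl | rfl | rfl | rfl | rfl <;> simp
  have m2 : ∀ k ∈ ([3, 2, 1, 2, 3] : List (Fin 4)), ![i1, i2, i3, i4] k ∈ ({i2, i3, i4} : Set I) := by
    intro k hk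
    simp only [List.mem_cons, List.not_mem_nil, or_false] at hk
    rcases hk with rfl | rfl | rfl | rfl | rfl <;> simp
  have m4 : ∀ k ∈ ([1, 2, 1, 2, 3, 2, 1, 2, 3] : List (Fin 4)), ![i1, i2, i3, i4] k ∈ ({i2, i3, i4} : Set I) := by
    intro k hk
    simp only [List.mem_cons, List.not_mem_nil, or_false] at hk
    rcases hk with rfl | rfl | rfl | rfl | rfl | rfl | rfl | rfl | rfl <;> simp
  refine ⟨_, wp_mem cs _ m1, _, wp_mem cs _ m2, _, wp_mem cs _ m1, _, wp_mem cs _ m4, ?_, ?_⟩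
  · rw [← hw, wp_append, wp_append, wp_append]
  · rw [← hw, l0, l1, l2, l4]
    rfl

end Facts

end Cfsg.Agent.H864.F4.Wf
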