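import Cfsg.Agent.H864.F4.Basic

/-!
# S2451, F4 combinatorics: the projective plane lemma (helper864)
-/

set_option autoImplicit false
set_option linter.unusedSectionVars false

namespace Cfsg.Agent.H864.F4

open Cfsg.Agent.Tits.Core Cfsg.Agent.Tits.Core.Bldg Cfsg.Agent.Tits.Exchange Cfsg.Agent.Tits

variable {I : Type*} {M : CoxeterMatrix I} {W : Type*} [Group W] {cs : CoxeterSystem M W} {C : Type*}
  {Δ : Bldg cs C} [Finite I] [Finite W]

theorem resL {k l : I} {x y : C} (h : y ∈ Δ.Pan k x) : y ∈ Δ.Res {k, l} x := pr (Set.mem_insert k {l}) h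

theorem resR {k l : I} {x y : C} (h : y ∈ Δ.Pan l x) : y ∈ Δ.Res {k, l} x :=
  pr (Set.mem_insert_of_mem k (Set.mem_singleton l)) h

theorem la2a (hth : Δ.Thick) {k l : I} (hm : M k l = 3) {V : C → Prop} {x : C}
    (hl : ∀ y, V y → ∀ y' ∈ Δ.Pan l y, V y') (h1 : ∀ y ∈ Δ.Res {k, l} x, ∃ y' ∈ Δ.Pan k y, V y')
    (h2 : ∀ y ∈ Δ.Res {k, l} x, ∀ y' ∈ Δ.Pan k y, y' ≠ y → V y → V y' → ∀ y'' ∈ Δ.Pan k y, V y'')
    (hx : V x) : ∃ x' ∈ Δ.Pan l x, ∀ y ∈ Δ.Pan k x', V y := by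
  obtain ⟨a, ha, hax⟩ := other hth k x
  obtain ⟨b, hb, hba⟩ := other hth l a
  have hbR : b ∈ Δ.Res {k, l} x := rt (resL ha) (resR hb)
  obtain ⟨y, hy, hVy⟩ := h1 b hbR
  by_cases hyb : y = b
  · subst hyb
    exact ⟨x, Δ.self_mem_Pan l x, h2 x (Δ.self_mem_Res _ x) a ha hax hx (hl _ hVy a (ps hb))⟩
  · obtain ⟨a', b', e1, e2, e3⟩ := braid3 hm (adj ha hax) (adj hb hba) (adj hy hyb)
    refine ⟨a', pan e1, h2 a' (resR (pan e1)) b' (pan e2) (Δ.ne_of_δ_simple e2).symm (hl _ hx a' (pan e1))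
      (hl _ hVy b' (ps (pan e3)))⟩

theorem la2b (hth : Δ.Thick) {k l : I} (hm : M k l = 3) {V : C → Prop} {x x' : C}
    (hl : ∀ y, V y → ∀ y' ∈ Δ.Pan l y, V y')
    (h2 : ∀ y ∈ Δ.Res {k, l} x, ∀ y' ∈ Δ.Pan k y, y' ≠ y → V y → V y' → ∀ y'' ∈ Δ.Pan k y, V y'')
    (hx' : x' ∈ Δ.Pan l x) (hne : x' ≠ x) (hV : ∀ y ∈ Δ.Pan k x, V y) (hV' : ∀ y ∈ Δ.Pan k x', V y) :
    ∀ y ∈ Δ.Res {k, l} x, V y := by
  have hkl := ne_of_three hm
  have hm2 : M k l ≠ 2 := by omega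
  have star : ∀ y ∈ Δ.Res {k, l} x, V y ∨ ∃ b ∈ Δ.Pan l x, y ∈ Δ.Pan k b := by
    intro y hy
    obtain ⟨a, ha, b, hb, hyb⟩ := join3 hm hy
    obtain ⟨a', ha', b', hb', hyb'⟩ := join3 hm (rt (rs (resR hx')) hy)
    have Vb : V b := hl _ (hV a ha) b hb
    have Vb' : V b' := hl _ (hV' a' ha') b' hb'
    have hbR : b ∈ Δ.Res {k, l} x := rt (resL ha) (resR hb)
    by_cases hbb : b' = b
    · subst hbb
      by_cases hax : a = x
      · subst hax
        exact Or.inr ⟨b', hb, hyb⟩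
      exfalso
      have haa : a' ∈ Δ.Pan l a := pt hb (ps hb')
      have l1 : cs.length (Δ.δ x x') ≤ 1 := by
        have h3 := len_le (x := x) hx'
        have h4 := len_self (Δ := Δ) x
        omega
      by_cases haa' : a' = a
      · subst haa'
        exact hne (pan_inter hkl (pt ha (ps ha')) hx')
      by_cases hax' : a' = x'
      · subst hax'
        have := len2 hkl (adj ha hax) (adj haa haa')
        omega
      · have := len3 hkl hm2 (adj ha hax) (adj haa haa') (adj (ps ha') (Ne.symm hax'))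
        omega
    · exact Or.inl (h2 b hbR b' (pt hyb (ps hyb')) hbb Vb Vb' y hyb)
  intro y hy
  rcases star y hy with h | ⟨b, hb, hyb⟩
  · exact h
  by_cases h3 : b = x
  · subst h3
    exact hV y hyb
  by_cases h4 : y = b
  · subst h4
    exact hl _ (hV x (Δ.self_mem_Pan k x)) y hb
  obtain ⟨z, hz, hzy⟩ := other hth l y
  rcases star z (rt hy (resR hz)) with h | ⟨c, hc, hzc⟩
  · exact hl _ h y (ps hz)
  · exfalso
    have h5 := len3 hkl.symm (by rw [sym hm]; omega) (adj hb h3) (adj hyb h4) (adj hz hzy)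
    have h6 := len_le (x := x) hzc
    have h7 := len_le (x := x) hc
    have h8 := len_self (Δ := Δ) x
    omega

end Cfsg.Agent.H864.F4
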