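import Cfsg.Agent.H148.Cls.F4Set
import Cfsg.Agent.Tits.Generic

/-!
# S2451, F4 combinatorics: short galleries in residues of rank two (helper864)

* `tr`, `trRes`      : parallel transport along commuting types;
* `join3`, `join4`   : normal forms of galleries in residues of type `A2`, `B2`;
* `d2`, `d3`, `d4`, `d5` : distances of short galleries;
* `conn`             : convex sets are connected.
-/

set_option autoImplicit false
set_option linter.unusedSectionVars false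

namespace Cfsg.Agent.H864.F4

open Cfsg.Agent.Tits.Core Cfsg.Agent.Tits.Core.Bldg Cfsg.Agent.Tits.Exchange Cfsg.Agent.Tits

variable {I : Type*} {M : CoxeterMatrix I} {W : Type*} [Group W] {cs : CoxeterSystem M W} {C : Type*}
  {Δ : Bldg cs C}

local notation "ℓ" => cs.length

/-! ### Panels -/

theorem adj {i : I} {x y : C} (h : y ∈ Δ.Pan i x) (hne : y ≠ x) : Δ.δ x y = cs.simple i := h.resolve_left hne

theorem adj' {i : I} {x y : C} (h : y ∈ Δ.Pan i x) (hne : x ≠ y) : Δ.δ x y = cs.simple i :=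
  h.resolve_left hne.symm

theorem pan {i : I} {x y : C} (h : Δ.δ x y = cs.simple i) : y ∈ Δ.Pan i x := Or.inr h

theorem ps {i : I} {x y : C} (h : y ∈ Δ.Pan i x) : x ∈ Δ.Pan i y := Δ.mem_Pan_symm h

theorem pt {i : I} {x y z : C} (h : y ∈ Δ.Pan i x) (h' : z ∈ Δ.Pan i y) : z ∈ Δ.Pan i x := Δ.mem_Pan_trans h h'

theorem len_le {i : I} {x y z : C} (h : z ∈ Δ.Pan i y) : ℓ (Δ.δ x z) ≤ ℓ (Δ.δ x y) + 1 := by
  rcases h with rfl | h
  · omega
  · rcases Δ.step x y z i h with h1 | h1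
    · rw [h1]
      have h2 := cs.length_mul_le (Δ.δ x y) (cs.simple i)
      rw [cs.length_simple] at h2
      exact h2
    · rw [h1]; omega

theorem len_self (x : C) : ℓ (Δ.δ x x) = 0 := by rw [Δ.δ_self, cs.length_one]

theorem rs {J : Set I} {x y : C} (h : y ∈ Δ.Res J x) : x ∈ Δ.Res J y := Δ.mem_Res_symm h

theorem rt {J : Set I} {x y z : C} (h : y ∈ Δ.Res J x) (h' : z ∈ Δ.Res J y) : z ∈ Δ.Res J x := Δ.mem_Res_trans h h'

theorem pr {J : Set I} {i : I} (hi : i ∈ J) {x y : C} (h : y ∈ Δ.Pan i x) : y ∈ Δ.Res J x :=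
  Δ.Pan_subset_Res hi x h

/-- a third chamber -/
theorem other (hth : Δ.Thick) (i : I) (x : C) : ∃ y ∈ Δ.Pan i x, y ≠ x := by
  obtain ⟨y, z, _, hy, _⟩ := hth x i
  exact ⟨y, pan hy, (Δ.ne_of_δ_simple hy).symm⟩

/-! ### Words -/

section

variable [Finite I] [Finite W]

theorem ne_of_two {i k : I} (h : M i k = 2) : i ≠ k := by
  rintro rfl
  rw [M.diagonal] at h
  omega

theorem ne_of_three {i k : I} (h : M i k = 3) : i ≠ k := by
  rintro rfl
  rw [M.diagonal] at h
  omega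

theorem ne_of_four {i k : I} (h : M i k = 4) : i ≠ k := by
  rintro rfl
  rw [M.diagonal] at h
  omega

theorem sym {i k : I} {n : ℕ} (h : M i k = n) : M k i = n := by rw [M.symmetric]; exact h

theorem pan_inter {i k : I} (hik : i ≠ k) {x y : C} (h : y ∈ Δ.Pan i x) (h' : y ∈ Δ.Pan k x) : y = x := by
  by_contra hne
  have h1 := adj h hne
  rw [adj h' hne] at h1
  exact hik (OppRes.Cox.inj (cs := cs) h1).symm

theorem d2 {i j : I} (hij : i ≠ j) {x a b : C} (h1 : Δ.δ x a = cs.simple i) (h2 : Δ.δ a b = cs.simple j) :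
    Δ.δ x b = cs.simple i * cs.simple j :=
  Δ.δ_mul_of h1 h2 (by rw [Generic.length_two cs hij, cs.length_simple, cs.length_simple])

theorem d3 {i j : I} (hij : i ≠ j) (hm : M i j ≠ 2) {x a b c : C} (h1 : Δ.δ x a = cs.simple i)
    (h2 : Δ.δ a b = cs.simple j) (h3 : Δ.δ b c = cs.simple i) :
    Δ.δ x c = cs.simple i * cs.simple j * cs.simple i :=
  Δ.δ_mul_of (d2 hij h1 h2) h3 (by
    rw [Generic.length_three cs hij hm, Generic.length_two cs hij, cs.length_simple])

theorem d4 {i j : I} (hm : M i j = 4) {x a b c d : C} (h1 : Δ.δ x a = cs.simple i)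
    (h2 : Δ.δ a b = cs.simple j) (h3 : Δ.δ b c = cs.simple i) (h4 : Δ.δ c d = cs.simple j) :
    Δ.δ x d = cs.simple i * cs.simple j * cs.simple i * cs.simple j :=
  Δ.δ_mul_of (d3 (ne_of_four hm) (by omega) h1 h2 h3) h4 (by
    rw [Generic.length_four cs (ne_of_four hm) hm, Generic.length_three cs (ne_of_four hm) (by omega),
      cs.length_simple])

/-- commuting transport -/
theorem tr {i k : I} (hik : M i k = 2) {x y x' : C} (hy : y ∈ Δ.Pan k x) (hx : x' ∈ Δ.Pan i x) :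
    ∃ y', y' ∈ Δ.Pan i y ∧ y' ∈ Δ.Pan k x' ∧ (y ≠ x → y' ≠ x') ∧ (x' ≠ x → y' ≠ y) := by
  have hne := ne_of_two hik
  have key : ∃ y', y' ∈ Δ.Pan i y ∧ y' ∈ Δ.Pan k x' := by
    by_cases h1 : y = x
    · subst h1
      exact ⟨x', hx, Δ.self_mem_Pan k x'⟩
    by_cases h2 : x' = x
    · subst h2
      exact ⟨y, Δ.self_mem_Pan i y, hy⟩
    have h3 := d2 hne.symm (adj (ps hy) (Ne.symm h1)) (adj hx h2)
    rw [← Generic.braid_two cs hik] at h3
    obtain ⟨z, hz, hz'⟩ := Δ.exists_between h3 (by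
      rw [Generic.length_two cs hne, cs.length_simple, cs.length_simple])
    exact ⟨z, pan hz, ps (pan hz')⟩
  obtain ⟨y', h1, h2⟩ := key
  refine ⟨y', h1, h2, fun h => ?_, fun h => ?_⟩
  · rintro rfl
    exact h (pan_inter hne (pt hx (ps h1)) hy)
  · rintro rfl
    exact h (pan_inter hne hx (pt hy (ps h2)))

/-- commuting transport along a residue -/
theorem trRes {J : Set I} {k : I} (hJ : ∀ j ∈ J, M j k = 2) {x y x' : C} (hy : y ∈ Δ.Pan k x)
    (hx : x' ∈ Δ.Res J x) : ∃ y', y' ∈ Δ.Res J y ∧ y' ∈ Δ.Pan k x' ∧ (y ≠ x → y' ≠ x') := by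
  refine Δ.Res_induction (p := fun x' => ∃ y', y' ∈ Δ.Res J y ∧ y' ∈ Δ.Pan k x' ∧ (y ≠ x → y' ≠ x'))
    ⟨y, Δ.self_mem_Res J y, hy, fun h => h⟩ ?_ hx
  rintro z _ z' j hj hzz' ⟨y', h1, h2, h3⟩
  obtain ⟨y'', h4, h5, h6, _⟩ := tr (hJ j hj) h2 (pan hzz')
  exact ⟨y'', rt h1 (pr hj h4), h5, fun h => h6 (h3 h)⟩

theorem braid3 {i j : I} (hm : M i j = 3) {x a b y : C} (h1 : Δ.δ x a = cs.simple i)
    (h2 : Δ.δ a b = cs.simple j) (h3 : Δ.δ b y = cs.simple i) :
    ∃ a' b', Δ.δ x a' = cs.simple j ∧ Δ.δ a' b' = cs.simple i ∧ Δ.δ b' y = cs.simple j := by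
  have hij := ne_of_three hm
  have h := d3 hij (by omega) h1 h2 h3
  rw [Generic.braid_three cs hm] at h
  obtain ⟨b', hb, hb'⟩ := Δ.exists_between h (by
    rw [Generic.length_three cs hij.symm (by rw [sym hm]; omega), Generic.length_two cs hij.symm, cs.length_simple])
  obtain ⟨a', ha, ha'⟩ := Δ.exists_between hb (by
    rw [Generic.length_two cs hij.symm, cs.length_simple, cs.length_simple])
  exact ⟨a', b', ha, ha', hb'⟩

theorem braid4 {i j : I} (hm : M i j = 4) {x a b c y : C} (h1 : Δ.δ x a = cs.simple i)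
    (h2 : Δ.δ a b = cs.simple j) (h3 : Δ.δ b c = cs.simple i) (h4 : Δ.δ c y = cs.simple j) :
    ∃ a' b' c', Δ.δ x a' = cs.simple j ∧ Δ.δ a' b' = cs.simple i ∧ Δ.δ b' c' = cs.simple j ∧
      Δ.δ c' y = cs.simple i := by
  have hij := ne_of_four hm
  have hm' := sym hm
  have h := d4 hm h1 h2 h3 h4
  rw [Generic.braid_four cs hm] at h
  obtain ⟨c', hc, hc'⟩ := Δ.exists_between h (by
    rw [Generic.length_four cs hij.symm hm', Generic.length_three cs hij.symm (by omega), cs.length_simple])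
  obtain ⟨b', hb, hb'⟩ := Δ.exists_between hc (by
    rw [Generic.length_three cs hij.symm (by omega), Generic.length_two cs hij.symm, cs.length_simple])
  obtain ⟨a', ha, ha'⟩ := Δ.exists_between hb (by
    rw [Generic.length_two cs hij.symm, cs.length_simple, cs.length_simple])
  exact ⟨a', b', c', ha, ha', hb', hc'⟩

/-- galleries of type `k, l, k` in a residue of type `A2` -/
theorem join3 {k l : I} (hm : M k l = 3) {x y : C} (hy : y ∈ Δ.Res {k, l} x) :
    ∃ a ∈ Δ.Pan k x, ∃ b ∈ Δ.Pan l a, y ∈ Δ.Pan k b := by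
  refine Δ.Res_induction (p := fun y => ∃ a ∈ Δ.Pan k x, ∃ b ∈ Δ.Pan l a, y ∈ Δ.Pan k b)
    ⟨x, Δ.self_mem_Pan k x, x, Δ.self_mem_Pan l x, Δ.self_mem_Pan k x⟩ ?_ hy
  clear hy
  rintro y _ z i hi hyz ⟨a, ha, b, hb, hy⟩
  simp only [Set.mem_insert_iff, Set.mem_singleton_iff] at hi
  rcases hi with rfl | rfl
  · exact ⟨a, ha, b, hb, pt hy (pan hyz)⟩
  by_cases h1 : y = b
  · subst h1
    exact ⟨a, ha, z, pt hb (pan hyz), Δ.self_mem_Pan k z⟩
  by_cases h2 : b = a
  · subst h2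
    exact ⟨y, pt ha hy, z, pan hyz, Δ.self_mem_Pan k z⟩
  by_cases h3 : a = x
  · subst h3
    obtain ⟨a', b', e1, e2, e3⟩ := braid3 (sym hm) (adj hb h2) (adj hy h1) hyz
    exact ⟨a', pan e1, b', pan e2, pan e3⟩
  obtain ⟨a', b', e1, e2, e3⟩ := braid3 hm (adj ha h3) (adj hb h2) (adj hy h1)
  have h4 : z ∈ Δ.Pan i b' := pt (pan e3) (pan hyz)
  by_cases h5 : z = b'
  · subst h5
    exact ⟨x, Δ.self_mem_Pan k x, a', pan e1, pan e2⟩
  obtain ⟨a'', b'', e4, e5, e6⟩ := braid3 (sym hm) e1 e2 (adj h4 h5)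
  exact ⟨a'', pan e4, b'', pan e5, pan e6⟩

/-- galleries of type `k, l, k, l` in a residue of type `B2` -/
theorem join4 {k l : I} (hm : M k l = 4) {x y : C} (hy : y ∈ Δ.Res {k, l} x) :
    ∃ a ∈ Δ.Pan k x, ∃ b ∈ Δ.Pan l a, ∃ c ∈ Δ.Pan k b, y ∈ Δ.Pan l c := by
  refine Δ.Res_induction (p := fun y => ∃ a ∈ Δ.Pan k x, ∃ b ∈ Δ.Pan l a, ∃ c ∈ Δ.Pan k b, y ∈ Δ.Pan l c)
    ⟨x, Δ.self_mem_Pan k x, x, Δ.self_mem_Pan l x, x, Δ.self_mem_Pan k x, Δ.self_mem_Pan l x⟩ ?_ hy
  clear hy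
  rintro y _ z i hi hyz ⟨a, ha, b, hb, c, hc, hy⟩
  simp only [Set.mem_insert_iff, Set.mem_singleton_iff] at hi
  have hs := Δ.self_mem_Pan
  rcases hi with rfl | rfl
  swap
  · exact ⟨a, ha, b, hb, c, hc, pt hy (pan hyz)⟩
  by_cases h1 : y = c
  · subst h1
    exact ⟨a, ha, b, hb, z, pt hc (pan hyz), hs l z⟩
  by_cases h2 : c = b
  · subst h2
    exact ⟨a, ha, y, pt hb hy, z, pan hyz, hs l z⟩
  by_cases h3 : b = a
  · subst h3
    exact ⟨c, pt ha hc, y, hy, z, pan hyz, hs l z⟩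
  by_cases h4 : a = x
  · subst h4
    obtain ⟨a', b', c', e1, e2, e3, e4⟩ := braid4 (sym hm) (adj hb h3) (adj hc h2) (adj hy h1) hyz
    exact ⟨a', pan e1, b', pan e2, c', pan e3, pan e4⟩
  obtain ⟨a', b', c', e1, e2, e3, e4⟩ := braid4 hm (adj ha h4) (adj hb h3) (adj hc h2) (adj hy h1)
  have h5 : z ∈ Δ.Pan i c' := pt (pan e4) (pan hyz)
  by_cases h6 : z = c'
  · subst h6
    exact ⟨x, hs i x, a', pan e1, b', pan e2, pan e3⟩
  obtain ⟨a'', b'', c'', e5, e6, e7, e8⟩ := braid4 (sym hm) e1 e2 e3 (adj h5 h6)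
  exact ⟨a'', pan e5, b'', pan e6, c'', pan e7, pan e8⟩

/-- a proper gallery of type `i, j` is not a gallery of type `j, i` -/
theorem no_swap {i j : I} (hij : i ≠ j) (hm : M i j ≠ 2) {x a b c : C} (h1 : Δ.δ x a = cs.simple i)
    (h2 : Δ.δ a b = cs.simple j) (h3 : c ∈ Δ.Pan j x) (h4 : b ∈ Δ.Pan i c) : False := by
  have h5 := d2 hij h1 h2
  have h6 := Generic.length_two cs hij
  rw [← h5] at h6
  have l0 := len_self (Δ := Δ) x
  by_cases h7 : c = x
  · subst h7
    have := len_le (x := c) h4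
    omega
  by_cases h8 : b = c
  · subst h8
    have := len_le (x := x) h3
    omega
  have h9 := d2 hij.symm (adj h3 h7) (adj h4 h8)
  rw [h5] at h9
  have h10 := Generic.length_three cs hij hm
  rw [h9, mul_assoc, cs.simple_mul_simple_self, mul_one, cs.length_simple] at h10
  omega

/-- a proper gallery of type `i, j, i` has length three -/
theorem len3 {i j : I} (hij : i ≠ j) (hm : M i j ≠ 2) {x a b c : C} (h1 : Δ.δ x a = cs.simple i)
    (h2 : Δ.δ a b = cs.simple j) (h3 : Δ.δ b c = cs.simple i) : ℓ (Δ.δ x c) = 3 := by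
  rw [d3 hij hm h1 h2 h3, Generic.length_three cs hij hm]

theorem len2 {i j : I} (hij : i ≠ j) {x a b : C} (h1 : Δ.δ x a = cs.simple i)
    (h2 : Δ.δ a b = cs.simple j) : ℓ (Δ.δ x b) = 2 := by
  rw [d2 hij h1 h2, Generic.length_two cs hij]

theorem len4 {i j : I} (hm : M i j = 4) {x a b c d : C} (h1 : Δ.δ x a = cs.simple i)
    (h2 : Δ.δ a b = cs.simple j) (h3 : Δ.δ b c = cs.simple i) (h4 : Δ.δ c d = cs.simple j) :
    ℓ (Δ.δ x d) = 4 := by
  rw [d4 hm h1 h2 h3 h4, Generic.length_four cs (ne_of_four hm) hm]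

/-- connectedness -/
theorem conn {F : Set C} (hconv : ∀ x y z : C, cs.length (Δ.δ x z) = cs.length (Δ.δ x y) + cs.length (Δ.δ y z) →
      Δ.δ x z = Δ.δ x y * Δ.δ y z → x ∈ F → z ∈ F → y ∈ F) {J : Set I} {p : C → Prop} {x y : C} (hx : x ∈ F)
    (hy : y ∈ F) (hxy : y ∈ Δ.Res J x) (h0 : p x)
    (hs : ∀ z ∈ F, ∀ z' ∈ F, z ∈ Δ.Res J x → ∀ j ∈ J, z' ∈ Δ.Pan j z → z' ≠ z → p z → p z') : p y := by
  generalize hn : ℓ (Δ.δ x y) = n
  induction n generalizing y with
  | zero =>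
    rw [cs.length_eq_zero_iff] at hn
    rwa [← Δ.eq_of_δ_eq_one hn]
  | succ n ih =>
    have h1 : Δ.δ x y ≠ 1 := by
      intro h
      rw [h, cs.length_one] at hn
      omega
    obtain ⟨j, hj, hlt⟩ := OppRes.Cox.exists_descent (cs := cs) inferInstance hxy h1
    obtain ⟨z, hz, hz'⟩ := Δ.exists_step x y j
    have h2 : ℓ (Δ.δ x z) = n := by
      rw [hz']
      rcases cs.length_mul_simple (Δ.δ x y) j with h | h <;> omega
    have hzy : Δ.δ z y = cs.simple j := Δ.δ_symm_simple hz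
    have hzF : z ∈ F := by
      refine hconv x z y ?_ ?_ hx hy
      · rw [h2, hzy, cs.length_simple, hn]
      · rw [hz', hzy, mul_assoc, cs.simple_mul_simple_self, mul_one]
    have hzR : z ∈ Δ.Res J x := rt hxy (pr hj (pan hz))
    exact hs z hzF y hy hzR j hj (pan hzy) (Δ.ne_of_δ_simple hzy).symm (ih hzF hzR h2)

/-- the word `1, 2, 3, 2, 1` -/
theorem d5 {i1 i2 i3 : I} (m12 : M i1 i2 = 3) (m23 : M i2 i3 = 4) (m13 : M i1 i3 = 2) {x a b c d y : C}
    (h1 : Δ.δ x a = cs.simple i1) (h2 : Δ.δ a b = cs.simple i2) (h3 : Δ.δ b c = cs.simple i3)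
    (h4 : Δ.δ c d = cs.simple i2) (h5 : Δ.δ d y = cs.simple i1) :
    Δ.δ x y = cs.simple i1 * cs.simple i2 * cs.simple i3 * cs.simple i2 * cs.simple i1 := by
  have n12 := ne_of_three m12
  have n23 := ne_of_four m23
  have n13 := ne_of_two m13
  have l3 := Generic.length_three cs n23 (by omega : M i2 i3 ≠ 2)
  have hmem : cs.simple i2 * cs.simple i3 * cs.simple i2 ∈ WJ cs {i2, i3} :=
    mul_mem (mul_mem (Generic.simple_mem_left cs i2 i3) (Generic.simple_mem_right cs i2 i3))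
      (Generic.simple_mem_left cs i2 i3)
  have hn1 : i1 ∉ ({i2, i3} : Set I) := by
    simp only [Set.mem_insert_iff, Set.mem_singleton_iff, not_or]
    exact ⟨n12, n13⟩
  have hinv : (cs.simple i2 * cs.simple i3 * cs.simple i2)⁻¹ = cs.simple i2 * cs.simple i3 * cs.simple i2 := by
    simp only [mul_inv_rev, cs.inv_simple, mul_assoc]
  have l4 : ℓ (cs.simple i2 * cs.simple i3 * cs.simple i2 * cs.simple i1) = 4 := by
    rcases cs.length_mul_simple (cs.simple i2 * cs.simple i3 * cs.simple i2) i1 with h | h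
    · rw [h, l3]
    · exact absurd (OppRes.Cox.descent_mem (cs := cs) _ _ hmem i1 (by omega)) hn1
  have l4' : ℓ (cs.simple i1 * (cs.simple i2 * cs.simple i3 * cs.simple i2)) = 4 := by
    rw [← l4, ← cs.length_inv, mul_inv_rev, hinv, cs.inv_simple]
  have l5 : ℓ (cs.simple i1 * (cs.simple i2 * cs.simple i3 * cs.simple i2) * cs.simple i1) = 5 := by
    rcases cs.length_mul_simple (cs.simple i1 * (cs.simple i2 * cs.simple i3 * cs.simple i2)) i1 with h | h
    · rw [h, l4']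
    · exfalso
      rcases fold cs (w := cs.simple i2 * cs.simple i3 * cs.simple i2) (i := i1) (j := i1)
        (by rw [l4', l3]) (by rw [l4, l3]) with hf | hf
      · omega
      have e0 : cs.simple i1 * (cs.simple i2 * cs.simple i3 * cs.simple i2) * cs.simple i1 =
          cs.simple i2 * cs.simple i3 * cs.simple i2 := by
        rw [hf, mul_assoc, cs.simple_mul_simple_self, mul_one]
      have e1 : cs.simple i2 * (cs.simple i1 * (cs.simple i2 * cs.simple i3 * cs.simple i2) * cs.simple i1) *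
          cs.simple i2 = cs.simple i3 := by
        rw [e0]
        simp only [mul_assoc, cs.simple_mul_simple_self, mul_one, cs.simple_mul_simple_cancel_left]
      have e2 : cs.simple i2 * (cs.simple i1 * (cs.simple i2 * cs.simple i3 * cs.simple i2) * cs.simple i1) *
          cs.simple i2 = (cs.simple i2 * cs.simple i1 * cs.simple i2) * cs.simple i3 *
            (cs.simple i2 * cs.simple i1 * cs.simple i2) := by
        simp only [mul_assoc]
      have e3 : cs.simple i1 * cs.simple i3 * cs.simple i1 = cs.simple i3 := by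
        rw [Generic.braid_two cs m13, mul_assoc, cs.simple_mul_simple_self, mul_one]
      have e4 : (cs.simple i1 * cs.simple i2 * cs.simple i1) * cs.simple i3 *
          (cs.simple i1 * cs.simple i2 * cs.simple i1) =
            cs.simple i1 * (cs.simple i2 * (cs.simple i1 * cs.simple i3 * cs.simple i1) * cs.simple i2) *
              cs.simple i1 := by
        simp only [mul_assoc]
      rw [e1, ← Generic.braid_three cs m12, e4, e3, e0] at e2
      rw [← e2, cs.length_simple] at l3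
      omega
  have h6 := d3 n23 (by omega : M i2 i3 ≠ 2) h2 h3 h4
  have h7 : Δ.δ x d = cs.simple i1 * (cs.simple i2 * cs.simple i3 * cs.simple i2) :=
    Δ.δ_mul_of h1 h6 (by rw [l4', l3, cs.length_simple])
  have h8 : Δ.δ x y = cs.simple i1 * (cs.simple i2 * cs.simple i3 * cs.simple i2) * cs.simple i1 :=
    Δ.δ_mul_of h7 h5 (by rw [l5, l4', cs.length_simple])
  rw [h8]
  simp only [mul_assoc]

end

end Cfsg.Agent.H864.F4
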