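import Cfsg.Agent.H864.F4.Local

/-!
# S2451, F4 combinatorics: deep chambers, trivial symplecta (helper864)

`L2` : deep chambers exist; `G1`, `K1`, `K2`, `M1`, `M2` as in `tools/plans/S2451-F4.md`.
-/

set_option autoImplicit false
set_option linter.unusedSectionVars false

namespace Cfsg.Agent.H864.F4

open Cfsg.Agent.Tits.Core Cfsg.Agent.Tits.Core.Bldg Cfsg.Agent.Tits.Exchange Cfsg.Agent.Tits
open Cfsg.Agent.H148.Cls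

variable {I : Type*} {M : CoxeterMatrix I} {W : Type*} [Group W] {cs : CoxeterSystem M W} {C : Type*}
  {Δ : Bldg cs C} [Finite I] [Finite W] {i1 i2 i3 i4 : I} {F : Set C}

theorem s23 : ({i2, i3} : Set I) ⊆ {i2, i3, i4} := by
  intro j hj
  rcases hj with rfl | rfl <;> simp

theorem s34 : ({i3, i4} : Set I) ⊆ {i2, i3, i4} := by
  intro j hj
  rcases hj with rfl | rfl <;> simp

theorem s12 : ({i1, i2} : Set I) ⊆ {i1, i2, i3} := by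
  intro j hj
  rcases hj with rfl | rfl <;> simp

theorem s23' : ({i2, i3} : Set I) ⊆ {i1, i2, i3} := by
  intro j hj
  rcases hj with rfl | rfl <;> simp

variable (h : F4Set Δ i1 i2 i3 i4 F)

include h

/-- **Deep chambers exist.** -/
theorem L2 (hne : F.Nonempty) : ∃ x, Δ.Res {i2, i3, i4} x ⊆ F := by
  by_contra hno
  push Not at hno
  -- at most one `T_23` in a `1`-panel
  have U1 : ∀ x x' : C, x' ∈ Δ.Pan i1 x → x' ≠ x → Δ.Res {i2, i3} x ⊆ F → ¬ Δ.Res {i2, i3} x' ⊆ F := by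
    intro x x' hx' hne h1 h2
    obtain ⟨y, _, hy⟩ := L1 h (G2 h hx' hne h1 h2)
    exact hno y hy
  have m21 := sym h.m12
  have n12 := ne_of_three h.m12
  have n34 := ne_of_three h.m34
  obtain ⟨x0, hx0⟩ := hne
  obtain ⟨x00, _, hT00⟩ := climb h hx0
  obtain ⟨x, hx, hT1⟩ := h.c1 x00 (T1_of_T (by simp) hT00)
  have hT : Δ.Res {i2, i3} x ⊆ F := T_eq (resL hx) hT00
  -- another point on the line of `x`
  obtain ⟨x', hx', hne'⟩ := other h.thick i1 x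
  have hx'F : x' ∈ F := hT1 hx'
  obtain ⟨y', hy', hTy'⟩ := climb h hx'F
  obtain ⟨a', ha', b', hb', hyb'⟩ := join3 h.m34 hy'
  have hT2b' : Δ.Pan i2 b' ⊆ F := T2_of_T23 h (ps hyb') hTy'
  have hT2a' : Δ.Pan i2 a' ⊆ F := inv24 h (ps hb') hT2b'
  obtain ⟨a, ha1, ha2, ha3, _⟩ := tr h.m13 ha' (ps hx')
  -- `a -1- a'`, `a -3- x`
  have hTa : Δ.Res {i2, i3} a ⊆ F := T_eq (resR ha2) hT
  have haa' : a ≠ a' := by
    rintro rfl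
    exact hne' (pan_inter (ne_of_two h.m13) hx' (pt ha2 (ps ha')))
  have hT12 : Δ.Res {i1, i2} a ⊆ F := C3 h (ps ha1) haa'.symm (T1_of_T (by simp) hTa) hT2a'
  -- `r`
  obtain ⟨c, hc, hca⟩ := other h.thick i2 a
  obtain ⟨r, hr, hrc⟩ := other h.thick i1 c
  have hrR : r ∈ Δ.Res {i1, i2} a := rt (resR hc) (resL hr)
  have hT2r : Δ.Pan i2 r ⊆ F := T1_of_T (by simp) (T_eq hrR hT12)
  obtain ⟨r1, hr1, hTr1⟩ := B2a h hT2r
  obtain ⟨c1, e1, e2, e3, e4⟩ := tr h.m14 hr1 (ps hr)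
  -- `c1 -1- r1`, `c1 -4- c`
  obtain ⟨a1, e5, e6, e7, e8⟩ := tr h.m24 e2 (ps hc)
  -- `a1 -2- c1`, `a1 -4- a`
  have hT12' : Δ.Res {i1, i2} a1 ⊆ F := inv124 h e6 hT12
  obtain ⟨a2, ha2', hne2⟩ := other h.thick i3 a1
  have hT1a2 : Δ.Pan i1 a2 ⊆ F := inv13 h ha2' (T1_of_T (by simp) hT12')
  obtain ⟨a3, ha3', hT2a3⟩ := h.c2 a2 hT1a2
  obtain ⟨a4, e9, e10, e11, _⟩ := tr h.m13 (ps ha2') ha3'
  -- `a4 -1- a1`, `a4 -3- a3`
  have hT2a4 : Δ.Pan i2 a4 ⊆ F := T1_of_T (by simp) (T_eq (resL e9) hT12')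
  have hTa4 : Δ.Res {i2, i3} a4 ⊆ F := h.b1' a4 a3 (ps e10) (e11 hne2.symm).symm hT2a4 hT2a3
  have hR : r1 ∈ Δ.Res {i2, i1} a4 := by
    rw [Set.pair_comm]
    exact rt (resL (ps e9)) (rt (resR (ps e5)) (resL (ps e1)))
  obtain ⟨u, hu, v, hv, hrv⟩ := join3 m21 hR
  by_cases huv : v = u
  · subst huv
    have h1 : r1 ∈ Δ.Pan i2 a4 := pt hu hrv
    have g1 : Δ.δ a1 c1 = cs.simple i2 := adj (ps e5) (e8 hca.symm).symm
    have g2 : Δ.δ c1 r1 = cs.simple i1 := adj (ps e1) (e4 hrc.symm).symm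
    by_cases h2 : a4 = a1
    · subst h2
      have h3 := len2 n12.symm g1 g2
      have h4 := len_le (x := a4) h1
      have h5 := len_self (Δ := Δ) a4
      omega
    · have h3 := len3 n12 (by rw [h.m12]; omega) (adj (ps e9) (Ne.symm h2)) g1 g2
      have h4 := len_le (x := a4) h1
      have h5 := len_self (Δ := Δ) a4
      omega
  · exact U1 u v hv huv (T_eq (resL hu) hTa4) (T_eq (rs (resL hrv)) hTr1)

theorem G1 {x : C} (hx : ∀ y ∈ Δ.Res {i1, i2} x, Δ.Res {i2, i3} y ⊆ F) : Δ.Res {i1, i2, i3} x ⊆ F := by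
  obtain ⟨x1, h1, n1⟩ := other h.thick i1 x
  obtain ⟨x2, h2, n2⟩ := other h.thick i2 x1
  obtain ⟨x3, h3, n3⟩ := other h.thick i3 x2
  obtain ⟨x4, h4, n4⟩ := other h.thick i2 x3
  obtain ⟨y, h5, n5⟩ := other h.thick i1 x4
  have r2 : x2 ∈ Δ.Res {i1, i2} x := rt (resL h1) (resR h2)
  have hT2 := hx x2 r2
  obtain ⟨x2', h6, n6⟩ := other h.thick i1 x2
  have hT2' := hx x2' (rt r2 (resL h6))
  obtain ⟨x3', e1, e2, _, e4⟩ := tr h.m13 h3 h6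
  have hT12 : Δ.Res {i1, i2} x3 ⊆ F := C3 h e1 (e4 n6) (T2_of_T23 h h3 hT2) (T2_of_T23 h e2 hT2')
  have hy : y ∈ F := hT12 (rt (resR h4) (resL h5))
  exact h.g3 x y (hx x (Δ.self_mem_Res _ _)) hy
    (d5 h.m12 h.m23 h.m13 (adj h1 n1) (adj h2 n2) (adj h3 n3) (adj h4 n4) (adj h5 n5))

theorem G1' {x w : C} (hx : ∀ y ∈ Δ.Pan i1 x, Δ.Res {i2, i3} y ⊆ F) (hw : w ∈ Δ.Res {i1, i2} x)
    (hTw : Δ.Res {i2, i3} w ⊆ F) (hno : ∀ z ∈ Δ.Pan i1 x, w ∉ Δ.Pan i2 z) : Δ.Res {i1, i2, i3} x ⊆ F := by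
  refine G1 h fun y hy => ?_
  have m21 := sym h.m12
  have hR : w ∈ Δ.Res {i2, i1} y := by
    rw [Set.pair_comm]
    exact rt (rs hy) hw
  obtain ⟨u, hu, v, hv, hwv⟩ := join3 m21 hR
  have hTv : Δ.Res {i2, i3} v ⊆ F := T_eq (rs (resL hwv)) hTw
  by_cases huv : v = u
  · subst huv
    exact T_eq (rs (resL hu)) hTv
  have huR : u ∈ Δ.Res {i1, i2} x := rt hy (resR hu)
  obtain ⟨z, hz, z', hz', huz'⟩ := join3 h.m12 huR
  have hTz' : Δ.Res {i2, i3} z' ⊆ F := T_eq (resL hz') (hx z hz)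
  have hvz : z' ≠ v := by
    rintro rfl
    exact hno z hz (pt hz' hwv)
  have h1 := G2 h (pt (ps hv) (ps huz')) hvz hTv hTz' u (ps hv)
  exact T_eq (rs (resL hu)) h1

/-- symplecta of a deep plane are trivial -/
theorem DV {x : C} (hx : ∀ y ∈ Δ.Res {i1, i2} x, Δ.Res {i2, i3, i4} y ⊆ F) :
    ∀ x' ∈ Δ.Pan i4 x, Δ.Res {i1, i2, i3} x' ⊆ F := by
  intro x' hx'
  refine G1 h fun y' hy' => ?_
  obtain ⟨y, e1, e2, _⟩ := trRes (c12 h) (ps hx') hy'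
  exact T_mono s23 (T_eq (rs (pr (by simp) e2)) (hx y e1))

/-- two trivial symplecta on a plane -/
theorem K2a {x x' : C} (hx' : x' ∈ Δ.Pan i4 x) (hne : x' ≠ x) (h1 : Δ.Res {i1, i2, i3} x ⊆ F)
    (h2 : Δ.Res {i1, i2, i3} x' ⊆ F) : ∀ y ∈ Δ.Res {i1, i2} x, Δ.Res {i2, i3, i4} y ⊆ F := by
  intro y hy
  obtain ⟨y', e1, e2, e3⟩ := trRes (c12 h) hx' hy
  exact B2b h e2 (e3 hne) (T_mono s23' (T_eq (Δ.Res_mono s12 _ hy) h1))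
    (T_mono s23' (T_eq (Δ.Res_mono s12 _ e1) h2))

theorem K2 {x x' : C} (hx' : x' ∈ Δ.Pan i4 x) (hne : x' ≠ x) (h1 : Δ.Res {i1, i2, i3} x ⊆ F)
    (h2 : Δ.Res {i1, i2, i3} x' ⊆ F) : ∀ x'' ∈ Δ.Pan i4 x, Δ.Res {i1, i2, i3} x'' ⊆ F :=
  DV h (K2a h hx' hne h1 h2)

/-- `D_1` is invariant under `3`, `4` -/
theorem D1_inv {k : I} (hk : M i1 k = 2) (hk' : k = i3 ∨ k = i4) {x y : C} (hy : y ∈ Δ.Pan k x)
    (hx : ∀ z ∈ Δ.Pan i1 x, Δ.Res {i2, i3, i4} z ⊆ F) : ∀ z ∈ Δ.Pan i1 y, Δ.Res {i2, i3, i4} z ⊆ F := by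
  intro z hz
  obtain ⟨w, e1, e2, _⟩ := tr hk (ps hy) hz
  have hmem : k ∈ ({i2, i3, i4} : Set I) := by rcases hk' with rfl | rfl <;> simp
  exact T_eq (rs (pr hmem e2)) (hx w e1)

theorem K1 {x : C} (hx : ∀ z ∈ Δ.Pan i1 x, Δ.Res {i2, i3, i4} z ⊆ F) :
    ∃ x' ∈ Δ.Pan i4 x, Δ.Res {i1, i2, i3} x' ⊆ F := by
  have n12 := ne_of_three h.m12
  obtain ⟨x1, hx1, hne1⟩ := other h.thick i1 x
  have hT12 : Δ.Res {i1, i2} x ⊆ F := C3 h hx1 hne1 (T1_of_T (by simp) (hx x (Δ.self_mem_Pan _ _)))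
    (T1_of_T (by simp) (hx x1 hx1))
  obtain ⟨b, hb, hbx⟩ := other h.thick i2 x
  obtain ⟨x2, hx2, hne2⟩ := other h.thick i1 b
  have hR : x2 ∈ Δ.Res {i1, i2} x := rt (resR hb) (resL hx2)
  obtain ⟨x3, hx3, hT3⟩ := B2a h (T1_of_T (by simp) (T_eq hR hT12) : Δ.Pan i2 x2 ⊆ F)
  obtain ⟨b', e1, e2, e3, e4⟩ := tr h.m14 hx3 (ps hx2)
  -- `b' -1- x3`, `b' -4- b`
  obtain ⟨x', e5, e6, e7, e8⟩ := tr h.m24 e2 (ps hb)
  -- `x' -2- b'`, `x' -4- x`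
  refine ⟨x', e6, G1' h (w := x3) ?_ (rt (resR (ps e5)) (resL (ps e1))) hT3 ?_⟩
  · intro y' hy'
    obtain ⟨y, f1, f2, _⟩ := tr h.m14 (ps e6) hy'
    exact T_mono s23 (T_eq (rs (pr (by simp) f2)) (hx y f1))
  · intro z hz hz'
    exact no_swap n12.symm (by rw [sym h.m12]; omega) (adj (ps e5) (e8 hbx.symm).symm) (adj (ps e1) (e4 hne2.symm).symm)
      hz hz'

theorem M1 {y : C} (hV : Δ.Res {i1, i2, i3} y ⊆ F) (hD : Δ.Res {i2, i3, i4} y ⊆ F) :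
    ∃ y' ∈ Δ.Pan i2 y, ∀ z ∈ Δ.Pan i1 y', Δ.Res {i2, i3, i4} z ⊆ F := by
  have n12 := ne_of_three h.m12
  obtain ⟨a, ha, hay⟩ := other h.thick i1 y
  obtain ⟨b, hb, hba⟩ := other h.thick i2 a
  have hbR : b ∈ Δ.Res {i1, i2} y := rt (resL ha) (resR hb)
  obtain ⟨b', hb', hDb'⟩ := L1 h (x := b) fun z hz =>
    T_mono s23' (T_eq (Δ.Res_mono s12 _ (rt hbR (resL hz))) hV)
  have hR : b' ∈ Δ.Res {i2, i1} y := by
    rw [Set.pair_comm]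
    exact rt hbR (resL hb')
  obtain ⟨u, hu, v, hv, hbv⟩ := join3 (sym h.m12) hR
  by_cases huv : v = u
  · exfalso
    subst huv
    have h1 : b' ∈ Δ.Pan i2 y := pt hu hbv
    have h4 := len_le (x := y) h1
    have h5 := len_self (Δ := Δ) y
    by_cases hbb : b' = b
    · subst hbb
      have h3 := len2 n12 (adj ha hay) (adj hb hba)
      omega
    · have h3 := len3 n12 (by rw [h.m12]; omega) (adj ha hay) (adj hb hba) (adj hb' hbb)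
      omega
  · refine ⟨u, hu, G2' h hv huv (T_eq (pr (by simp) hu) hD) (T_eq (rs (pr (by simp) hbv)) hDb')⟩

/-- two deep lines in a plane -/
theorem M2a {y y' : C} (hy' : y' ∈ Δ.Pan i2 y) (hne : y' ≠ y) (h1 : ∀ z ∈ Δ.Pan i1 y, Δ.Res {i2, i3, i4} z ⊆ F)
    (h2 : ∀ z ∈ Δ.Pan i1 y', Δ.Res {i2, i3, i4} z ⊆ F) : ∀ z ∈ Δ.Res {i1, i2} y, Δ.Res {i2, i3, i4} z ⊆ F :=
  la2b (V := fun z => Δ.Res {i2, i3, i4} z ⊆ F) h.thick h.m12 (fun _ hz _ hz' => T_eq (pr (by simp) hz') hz)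
    (fun _ _ _ hz' hne h3 h4 => G2' h hz' hne h3 h4) hy' hne h1 h2

theorem M2 {y y' : C} (hy' : y' ∈ Δ.Pan i2 y) (hne : y' ≠ y) (h1 : ∀ z ∈ Δ.Pan i1 y, Δ.Res {i2, i3, i4} z ⊆ F)
    (h2 : ∀ z ∈ Δ.Pan i1 y', Δ.Res {i2, i3, i4} z ⊆ F) : ∀ x' ∈ Δ.Pan i4 y, Δ.Res {i1, i2, i3} x' ⊆ F :=
  DV h (M2a h hy' hne h1 h2)

end Cfsg.Agent.H864.F4
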