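import Cfsg.Agent.H864.F4.A2

/-!
# S2451, F4 combinatorics: local facts (helper864)

Names as in `tools/plans/S2451-F4.md`.
-/

set_option autoImplicit false
set_option linter.unusedSectionVars false

namespace Cfsg.Agent.H864.F4

open Cfsg.Agent.Tits.Core Cfsg.Agent.Tits.Core.Bldg Cfsg.Agent.Tits.Exchange Cfsg.Agent.Tits
open Cfsg.Agent.H148.Cls

variable {I : Type*} {M : CoxeterMatrix I} {W : Type*} [Group W] {cs : CoxeterSystem M W} {C : Type*}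
  {Δ : Bldg cs C} [Finite I] [Finite W] {i1 i2 i3 i4 : I} {F : Set C}

/-! ### Invariance -/

/-- `T_J` is invariant under commuting types -/
theorem T_inv {J : Set I} {k : I} (hJ : ∀ j ∈ J, M j k = 2) (hk : ∀ x ∈ F, Δ.Pan k x ⊆ F) {x y : C}
    (hy : y ∈ Δ.Pan k x) (h : Δ.Res J x ⊆ F) : Δ.Res J y ⊆ F := by
  intro z hz
  obtain ⟨z', h1, h2, _⟩ := trRes hJ (ps hy) hz
  exact hk z' (h h1) (ps h2)

theorem T1_inv {i k : I} (hik : M i k = 2) (hk : ∀ x ∈ F, Δ.Pan k x ⊆ F) {x y : C}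
    (hy : y ∈ Δ.Pan k x) (h : Δ.Pan i x ⊆ F) : Δ.Pan i y ⊆ F := by
  intro z hz
  obtain ⟨z', h1, h2, _⟩ := tr hik (ps hy) hz
  exact hk z' (h h1) (ps h2)

theorem self_of_T {J : Set I} {x : C} (h : Δ.Res J x ⊆ F) : x ∈ F := h (Δ.self_mem_Res J x)

theorem self_of_T1 {i : I} {x : C} (h : Δ.Pan i x ⊆ F) : x ∈ F := h (Δ.self_mem_Pan i x)

theorem T_eq {J : Set I} {x y : C} (hy : y ∈ Δ.Res J x) (h : Δ.Res J x ⊆ F) : Δ.Res J y ⊆ F := by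
  rwa [Δ.Res_eq_of_mem hy]

theorem T1_eq {i : I} {x y : C} (hy : y ∈ Δ.Pan i x) (h : Δ.Pan i x ⊆ F) : Δ.Pan i y ⊆ F := by
  rwa [Δ.Pan_eq_of_mem hy]

theorem T_mono {J K : Set I} (hJK : J ⊆ K) {x : C} (h : Δ.Res K x ⊆ F) : Δ.Res J x ⊆ F :=
  (Δ.Res_mono hJK x).trans h

theorem T1_of_T {J : Set I} {i : I} (hi : i ∈ J) {x : C} (h : Δ.Res J x ⊆ F) : Δ.Pan i x ⊆ F :=
  (Δ.Pan_subset_Res hi x).trans h

variable (h : F4Set Δ i1 i2 i3 i4 F)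

include h

theorem inv13 {x y : C} (hy : y ∈ Δ.Pan i3 x) (hx : Δ.Pan i1 x ⊆ F) : Δ.Pan i1 y ⊆ F := T1_inv h.m13 h.cl3 hy hx
theorem inv14 {x y : C} (hy : y ∈ Δ.Pan i4 x) (hx : Δ.Pan i1 x ⊆ F) : Δ.Pan i1 y ⊆ F := T1_inv h.m14 h.cl4 hy hx
theorem inv24 {x y : C} (hy : y ∈ Δ.Pan i4 x) (hx : Δ.Pan i2 x ⊆ F) : Δ.Pan i2 y ⊆ F := T1_inv h.m24 h.cl4 hy hx

theorem c12 : ∀ j ∈ ({i1, i2} : Set I), M j i4 = 2 := by
  intro j hj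
  rcases hj with rfl | rfl
  · exact h.m14
  · exact h.m24

theorem c34 : ∀ j ∈ ({i3, i4} : Set I), M j i1 = 2 := by
  intro j hj
  rcases hj with rfl | rfl
  · exact sym h.m13
  · exact sym h.m14

theorem inv124 {x y : C} (hy : y ∈ Δ.Pan i4 x) (hx : Δ.Res {i1, i2} x ⊆ F) : Δ.Res {i1, i2} y ⊆ F :=
  T_inv (c12 h) h.cl4 hy hx

theorem res34_F {x y : C} (hx : x ∈ F) (hy : y ∈ Δ.Res {i3, i4} x) : y ∈ F := by
  refine Δ.Res_induction (p := fun y => y ∈ F) hx ?_ hy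
  intro z _ z' i hi hz hzF
  rcases hi with rfl | rfl
  · exact h.cl3 z hzF (pan hz)
  · exact h.cl4 z hzF (pan hz)

/-! ### The planes `{1, 2}` -/

/-- two opposite chambers of a residue of type `A2` -/
theorem opp_three {i j : I} (hm : M i j = 3) {x a b y : C} (h1 : Δ.δ x a = cs.simple i)
    (h2 : Δ.δ a b = cs.simple j) (h3 : Δ.δ b y = cs.simple i) (hx : x ∈ F) (hy : y ∈ F) : Δ.Res {i, j} x ⊆ F := by
  refine h.opp _ x y hx hy ?_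
  rw [d3 (ne_of_three hm) (by omega) h1 h2 h3, Generic.wJ_three cs (ne_of_three hm) hm]

theorem C3 {x x' : C} (hx' : x' ∈ Δ.Pan i1 x) (hne : x' ≠ x) (h1 : Δ.Pan i2 x ⊆ F) (h2 : Δ.Pan i2 x' ⊆ F) :
    Δ.Res {i1, i2} x ⊆ F := by
  obtain ⟨y, hy, hyx⟩ := other h.thick i2 x
  obtain ⟨y', hy', hyx'⟩ := other h.thick i2 x'
  have h3 := opp_three h (sym h.m12) (Δ.δ_symm_simple (adj hy hyx)) (adj hx' hne) (adj hy' hyx') (h1 hy) (h2 hy')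
  rw [Set.pair_comm] at h3
  exact T_eq (rs (resR hy)) h3

theorem C3' {x x' : C} (hx' : x' ∈ Δ.Pan i2 x) (hne : x' ≠ x) (h1 : Δ.Pan i1 x ⊆ F) (h2 : Δ.Pan i1 x' ⊆ F) :
    Δ.Res {i1, i2} x ⊆ F := by
  obtain ⟨y, hy, hyx⟩ := other h.thick i1 x
  obtain ⟨y', hy', hyx'⟩ := other h.thick i1 x'
  have h3 := opp_three h h.m12 (Δ.δ_symm_simple (adj hy hyx)) (adj hx' hne) (adj hy' hyx') (h1 hy) (h2 hy')
  exact T_eq (rs (resL hy)) h3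

/-! ### The residues `{2, 3}` and `{3, 4}` -/

theorem T2_of_T23 {x y : C} (hy : y ∈ Δ.Pan i3 x) (hx : Δ.Res {i2, i3} x ⊆ F) : Δ.Pan i2 y ⊆ F :=
  T1_of_T (Set.mem_insert _ _) (T_eq (resR hy) hx)

/-- all chambers of `Pan 3 x` have `T_2` -/
theorem T23_of_all {x : C} (hx : ∀ y ∈ Δ.Pan i3 x, Δ.Pan i2 y ⊆ F) : Δ.Res {i2, i3} x ⊆ F := by
  obtain ⟨y, hy, hyx⟩ := other h.thick i3 x
  exact h.b1' x y hy hyx (hx x (Δ.self_mem_Pan _ _)) (hx y hy)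

theorem la34_1 {x : C} (hx : x ∈ F) : ∀ y ∈ Δ.Res {i3, i4} x, ∃ y' ∈ Δ.Pan i3 y, Δ.Pan i2 y' ⊆ F := fun y hy =>
  h.b1 y (res34_F h hx hy)

theorem la34_2 {x : C} : ∀ y ∈ Δ.Res {i3, i4} x, ∀ y' ∈ Δ.Pan i3 y, y' ≠ y → Δ.Pan i2 y ⊆ F → Δ.Pan i2 y' ⊆ F →
    ∀ y'' ∈ Δ.Pan i3 y, Δ.Pan i2 y'' ⊆ F := fun y _ y' hy' hne h1 h2 _ hy'' =>
  T2_of_T23 h hy'' (h.b1' y y' hy' hne h1 h2)

theorem B2a {x : C} (hx : Δ.Pan i2 x ⊆ F) : ∃ x' ∈ Δ.Pan i4 x, Δ.Res {i2, i3} x' ⊆ F := by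
  obtain ⟨x', hx', h1⟩ := la2a (V := fun y => Δ.Pan i2 y ⊆ F) h.thick h.m34 (fun y hy y' hy' => inv24 h hy' hy)
    (la34_1 h (self_of_T1 hx)) (la34_2 h) hx
  exact ⟨x', hx', T23_of_all h h1⟩

/-- two symplecta on a flag (point, line) : all -/
theorem B2b0 {x x' : C} (hx' : x' ∈ Δ.Pan i4 x) (hne : x' ≠ x) (h1 : Δ.Res {i2, i3} x ⊆ F)
    (h2 : Δ.Res {i2, i3} x' ⊆ F) : ∀ y ∈ Δ.Res {i3, i4} x, Δ.Res {i2, i3} y ⊆ F := by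
  have h3 := la2b (V := fun y => Δ.Pan i2 y ⊆ F) h.thick h.m34 (fun y hy y' hy' => inv24 h hy' hy)
    (la34_2 h) hx' hne (fun y hy => T2_of_T23 h hy h1) (fun y hy => T2_of_T23 h hy h2)
  intro y hy
  exact T23_of_all h fun z hz => h3 z (rt hy (resL hz))

theorem B2b {x x' : C} (hx' : x' ∈ Δ.Pan i4 x) (hne : x' ≠ x) (h1 : Δ.Res {i2, i3} x ⊆ F)
    (h2 : Δ.Res {i2, i3} x' ⊆ F) : Δ.Res {i2, i3, i4} x ⊆ F := by
  have key : ∀ y ∈ Δ.Res {i2, i3, i4} x, ∀ y' ∈ Δ.Pan i4 y, Δ.Res {i2, i3} y' ⊆ F := by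
    intro y hy
    refine Δ.Res_induction (p := fun y => ∀ y' ∈ Δ.Pan i4 y, Δ.Res {i2, i3} y' ⊆ F) ?_ ?_ hy
    · intro y' hy'
      exact B2b0 h hx' hne h1 h2 y' (resR hy')
    · intro z _ z' j hj hzz' hz w hw
      rcases hj with rfl | rfl | rfl
      · obtain ⟨w', e1, e2, _⟩ := tr h.m24 hw (ps (pan hzz'))
        exact T_eq (rs (resL e1)) (hz w' e2)
      · obtain ⟨u, hu, huz⟩ := other h.thick i4 z
        exact B2b0 h hu huz (hz z (Δ.self_mem_Pan _ _)) (hz u hu) w (rt (resL (pan hzz')) (resR hw))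
      · exact hz w (pt (pan hzz') hw)
  intro y hy
  exact self_of_T (key y hy y (Δ.self_mem_Pan _ _))

theorem climb {x : C} (hx : x ∈ F) : ∃ x' ∈ Δ.Res {i3, i4} x, Δ.Res {i2, i3} x' ⊆ F := by
  obtain ⟨a, ha, h1⟩ := h.b1 x hx
  obtain ⟨b, hb, h2⟩ := B2a h h1
  exact ⟨b, rt (resL ha) (resR hb), h2⟩

/-- two symplecta in a residue `{3, 4}` -/
theorem B0 {x w : C} (hw : w ∈ Δ.Res {i3, i4} x) (h1 : Δ.Res {i2, i3} x ⊆ F) (h2 : Δ.Res {i2, i3} w ⊆ F) :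
    Δ.Res {i2, i3, i4} x ⊆ F ∨ w ∈ Δ.Pan i3 x := by
  obtain ⟨a, ha, b, hb, hwb⟩ := join3 h.m34 hw
  by_cases hab : b = a
  · subst hab
    exact Or.inr (pt ha hwb)
  · left
    have h3 := B2b h hb hab (T_eq (resR ha) h1) (T_eq (rs (resR hwb)) h2)
    exact T_eq (rs (pr (by simp) ha)) h3

theorem B3 {x x' : C} (h1 : Δ.Res {i2, i3} x ⊆ F) (h2 : Δ.Res {i2, i3} x' ⊆ F)
    (hx' : x' ∈ Δ.Res {i2, i3, i4} x) : Δ.Res {i2, i3, i4} x ⊆ F ∨ x' ∈ Δ.Res {i2, i3} x := by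
  by_cases hD : Δ.Res {i2, i3, i4} x ⊆ F
  · exact Or.inl hD
  right
  have h23 : ({i2, i3} : Set I) ⊆ {i2, i3, i4} := by
    intro j hj
    rcases hj with rfl | rfl <;> simp
  have h34 : ({i3, i4} : Set I) ⊆ {i2, i3, i4} := by
    intro j hj
    rcases hj with rfl | rfl <;> simp
  have key : ∀ w ∈ Δ.Res {i3, i4} x', Δ.Res {i2, i3} w ⊆ F → w ∈ Δ.Res {i2, i3} x := by
    refine conn (p := fun y => ∀ w ∈ Δ.Res {i3, i4} y, Δ.Res {i2, i3} w ⊆ F → w ∈ Δ.Res {i2, i3} x) h.conv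
      (self_of_T h1) (self_of_T h2) hx' ?_ ?_
    · intro w hw hTw
      rcases B0 h hw h1 hTw with h3 | h3
      · exact absurd h3 hD
      · exact resR h3
    · intro y hyF z hzF hyR j hj hzy hne hy w hw hTw
      rcases hj with rfl | rfl | rfl
      · -- `y -2- z`
        have hT2 : Δ.Pan j y ⊆ F := h.uni j y z hyF hzF hzy hne
        obtain ⟨y', hy', hTy'⟩ := B2a h hT2
        have e1 := hy y' (resR hy') hTy'
        obtain ⟨z', e2, e3, _⟩ := tr h.m24 hy' hzy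
        have e4 : z' ∈ Δ.Res {j, i3} x := rt e1 (resL e2)
        have e5 : Δ.Res {j, i3} z' ⊆ F := T_eq (resL e2) hTy'
        rcases B0 h (rt (rs (resR e3)) hw) e5 hTw with h3 | h3
        · exact absurd (T_eq (rs (Δ.Res_mono h23 x e4)) h3) hD
        · exact rt e4 (resR h3)
      · exact hy w (rt (resL hzy) hw) hTw
      · exact hy w (rt (resR hzy) hw) hTw
  exact key x' (Δ.self_mem_Res _ _) h2

theorem G2 {x x' : C} (hx' : x' ∈ Δ.Pan i1 x) (hne : x' ≠ x) (h1 : Δ.Res {i2, i3} x ⊆ F)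
    (h2 : Δ.Res {i2, i3} x' ⊆ F) : ∀ z ∈ Δ.Pan i1 x, Δ.Res {i2, i3} z ⊆ F := by
  intro z hz
  refine T23_of_all h fun z3 hz3 => ?_
  obtain ⟨x3, e1, e2, _⟩ := tr h.m13 hz3 (ps hz)
  obtain ⟨x3', e3, e4, _⟩ := tr h.m13 hz3 (pt (ps hz) hx')
  have hne3 : x3' ≠ x3 := by
    rintro rfl
    exact hne (pan_inter (ne_of_two h.m13) hx' (pt e2 (ps e4)))
  have h3 := C3 h (pt (ps e1) e3) hne3 (T2_of_T23 h e2 h1) (T2_of_T23 h e4 h2)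
  exact T1_of_T (by simp) (T_eq (resL (ps e1)) h3)

theorem G2' {x x' : C} (hx' : x' ∈ Δ.Pan i1 x) (hne : x' ≠ x) (h1 : Δ.Res {i2, i3, i4} x ⊆ F)
    (h2 : Δ.Res {i2, i3, i4} x' ⊆ F) : ∀ z ∈ Δ.Pan i1 x, Δ.Res {i2, i3, i4} z ⊆ F := by
  have h23 : ({i2, i3} : Set I) ⊆ {i2, i3, i4} := by
    intro j hj
    rcases hj with rfl | rfl <;> simp
  have key : ∀ x4 ∈ Δ.Pan i4 x, ∀ z ∈ Δ.Pan i1 x4, Δ.Res {i2, i3} z ⊆ F := by
    intro x4 hx4 z hz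
    obtain ⟨x4', e1, e2, e3, e4⟩ := tr h.m14 hx4 hx'
    refine G2 h e1 (e4 hne) ?_ ?_ z hz
    · exact T_mono h23 (T_eq (pr (by simp) hx4) h1)
    · exact T_mono h23 (T_eq (pr (by simp) e2) h2)
  intro z hz
  obtain ⟨z4, hz4, hzz4⟩ := other h.thick i4 z
  obtain ⟨x4, e1, e2, _⟩ := tr h.m14 hz4 (ps hz)
  exact B2b h hz4 hzz4 (key x (Δ.self_mem_Pan _ _) z hz) (key x4 e2 z4 (ps e1))

theorem L1 {x : C} (hx : ∀ y ∈ Δ.Pan i1 x, Δ.Res {i2, i3} y ⊆ F) :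
    ∃ x' ∈ Δ.Pan i1 x, Δ.Res {i2, i3, i4} x' ⊆ F := by
  obtain ⟨x1, hx1, hne1⟩ := other h.thick i4 x
  obtain ⟨x2, hx2, hne2⟩ := other h.thick i3 x1
  have hT1 : Δ.Pan i1 x ⊆ F := fun y hy => self_of_T (hx y hy)
  have hT1' : Δ.Pan i1 x2 ⊆ F := inv13 h hx2 (inv14 h hx1 hT1)
  obtain ⟨x2', hx2', hT2⟩ := h.c2 x2 hT1'
  obtain ⟨x3, hx3, hT3⟩ := B2a h hT2
  obtain ⟨x1', e1, e2, hne3, _⟩ := tr h.m13 (ps hx2) hx2'
  -- `x1' -1- x1`, `x1' -3- x2'`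
  obtain ⟨x', e3, e4, hne4, _⟩ := tr h.m14 (ps hx1) e1
  -- `x' -1- x`, `x' -4- x1'`
  have hne3 : x2' ≠ x1' := (hne3 hne2.symm).symm
  have hne4 : x1' ≠ x' := (hne4 hne1.symm).symm
  have hTx' := hx x' e3
  have hR : x3 ∈ Δ.Res {i3, i4} x' := rt (resR (ps e4)) (rt (resL (ps e2)) (resR hx3))
  rcases B0 h hR hTx' hT3 with h6 | h6
  · exact ⟨x', e3, h6⟩
  · exfalso
    have h34 := ne_of_three h.m34
    exact no_swap h34.symm (by rw [sym h.m34]; omega) (adj (ps e4) hne4) (adj (ps e2) hne3) h6 (ps hx3)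

end Cfsg.Agent.H864.F4
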